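import Cfsg.Agent.H952.F4.Gen

/-!
# Generating triples (helper251, S5927)
-/

set_option autoImplicit false

namespace Cfsg.Agent.H251.E6

open Equiv Equiv.Perm Cfsg.Agent.H952.F4 Cfsg.Agent.H952.F4.Gen

theorem gen247 : GenT 7 {2, 2} {4, 2} {7} :=
  genT_of (n := 5) (c[2, 6] * c[4, 5]) (c[0, 5, 1, 3] * c[4, 6]) (by decide +kernel) (by decide +kernel)
    ![[], [],
    [0, 3, 0, 2, 2, 0, 3, 0],
    [0, 3, 0, 2, 0, 3, 0, 2, 0, 3],
    [2, 0, 2, 0, 2, 2, 0, 2, 2, 0, 3, 0, 2],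
    [2, 2, 0, 2, 0, 3, 0, 2, 0, 3, 0, 3],
    [3, 0, 2, 2, 0, 3]]
    (by decide +kernel) (by decide +kernel) (by decide +kernel) (by decide +kernel)

theorem gen434 : GenT 7 {4, 2} {3, 3} {4, 2} :=
  genT_of (n := 5) (c[0, 1, 5, 6] * c[3, 4]) (c[0, 2, 3] * c[1, 4, 5]) (by decide +kernel) (by decide +kernel)
    ![[], [],
    [2, 1, 3, 0, 3, 0, 3, 1],
    [2, 1, 3, 0, 2, 0],
    [2, 1, 2, 0, 3, 0, 2, 1],
    [3, 0, 0, 2, 1],
    [1, 3, 0, 0, 2]]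
    (by decide +kernel) (by decide +kernel) (by decide +kernel) (by decide +kernel)

theorem gen6c : GenT 6 {3} {3, 3} {4, 2} :=
  genT_of (n := 4) (c[2, 5, 3]) (c[0, 2, 5] * c[1, 3, 4]) (by decide +kernel) (by decide +kernel)
    ![[], [],
    [3, 0, 2],
    [1, 3, 0, 2, 0],
    [0, 3, 0, 2, 1, 2, 0, 3],
    [0, 3, 0, 2, 1]]
    (by decide +kernel) (by decide +kernel) (by decide +kernel) (by decide +kernel)

end Cfsg.Agent.H251.E6
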