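import Cfsg.Agent.H927.E6Der2
import Cfsg.Agent.H65.E6Inv

/-!
# The trace form on the adjoint module (helper251, S5927)
-/

set_option autoImplicit false

namespace Cfsg.Agent.H251.E6

open Cfsg Cfsg.Lie Module
open Cfsg.Agent.ChevalleyStructure.E6Min.Tables Cfsg.Agent.ChevalleyStructure.E6Min.Basic
  Cfsg.Agent.ChevalleyStructure.E6Min.Adjoint Cfsg.Agent.ChevalleyStructure.E6Min.Checks
open Cfsg.Agent.H65.E6Inv (ng ng_ng)
open scoped Matrix

/-- the check -/
def trChk (r s j : ℕ) : Bool := (s + r == 71) || (ent r j).blt 32 || (ent s (srN r j)).blt 32 || !(srN s (srN r j) == j)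

theorem trChk_all : (allLt 72 fun r => allLt 72 fun s => allLt 27 fun j => trChk r s j) = true := by
  decide +kernel

theorem tr_codes {r s : ℕ} (hr : r < 72) (hs : s < 72) (hrs : s + r ≠ 71) (x : I27) :
    sg r x * sg s (sr r x) = 0 ∨ sr s (sr r x) ≠ x := by
  have h := allLt_spec (allLt_spec (allLt_spec trChk_all r hr) s hs) _ (code_lt x)
  unfold trChk at h
  simp only [Bool.or_eq_true, beq_iff_eq, Nat.blt_eq, Bool.not_eq_true', beq_eq_false_iff_ne] at h
  rw [sg_sr hr, sr_sr hr]
  rcases h with ((h | h) | h) | h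
  · exact absurd h hrs
  · left
    have : sg r x = 0 := if_pos h
    rw [this, zero_mul]
  · left
    have : sgN s (srN r (code x)) = 0 := if_pos h
    rw [this, mul_zero]
  · right
    intro h1
    have e := code_dec (srN_lt hs (srN_lt hr (code_lt x)))
    rw [h1] at e
    exact h e.symm

theorem num_ne : ∀ r < 72, (∑ x : I27, if sg r x = 0 then (0 : ℤ) else 1) = 6 := by
  decide +kernel

section
variable {F : Type*} [CommRing F]

theorem mul_diag (r s : ℕ) (x : I27) : (Nm F r * Nm F s) x x =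
    if x = sr s (sr r x) then ((sg r x * sg s (sr r x) : ℤ) : F) else 0 := by
  rw [Nm_mul_apply, Nm_apply]
  split_ifs
  · rw [Int.cast_mul]
  · rw [mul_zero]

theorem tr_NN {r s : ℕ} (hr : r < 72) (hs : s < 72) (hrs : s + r ≠ 71) : (Nm F r * Nm F s).trace = 0 := by
  refine Finset.sum_eq_zero fun x _ => ?_
  rw [Matrix.diag_apply, mul_diag]
  split_ifs with h
  · rcases tr_codes hr hs hrs x with h1 | h1
    · rw [h1, Int.cast_zero]
    · exact absurd h.symm h1
  · rfl

theorem tr_NN' {r : ℕ} (hr : r < 72) : (Nm F r * Nm F (71 - r)).trace = 6 := by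
  have h1 : (Nm F r * Nm F (71 - r)).trace = ((∑ x : I27, if sg r x = 0 then (0 : ℤ) else 1 : ℤ) : F) := by
    rw [Matrix.trace, Int.cast_sum]
    refine Finset.sum_congr rfl fun x _ => ?_
    rw [Matrix.diag_apply, mul_diag]
    by_cases h : sg r x = 0
    · rw [h, zero_mul, Int.cast_zero, ite_self, if_pos rfl, Int.cast_zero]
    · obtain ⟨h1, h2, -⟩ := row_opp hr h
      rw [h1, h2, if_pos rfl, if_neg h]
  rw [h1, num_ne r hr]
  norm_num

theorem tr_HN {i s : ℕ} (hs : s < 72) : (Hm F i * Nm F s).trace = 0 := by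
  refine Finset.sum_eq_zero fun x _ => ?_
  rw [Matrix.diag_apply]
  unfold Hm
  rw [Matrix.diagonal_mul, Nm_apply]
  rcases row_diag hs x with h | h
  · rw [h]; simp
  · rw [if_neg h, mul_zero]

/-- the Cartan matrix -/
def Ca : Fin 6 → Fin 6 → ℤ :=
  ![![2, 0, -1, 0, 0, 0], ![0, 2, 0, -1, 0, 0], ![-1, 0, 2, -1, 0, 0], ![0, -1, -1, 2, -1, 0],
      ![0, 0, 0, -1, 2, -1], ![0, 0, 0, 0, -1, 2]]

def Ka : Fin 6 → Fin 6 → ℤ :=
  ![![4, 3, 5, 6, 4, 2], ![3, 6, 6, 9, 6, 3], ![5, 6, 10, 12, 8, 4], ![6, 9, 12, 18, 12, 6],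
    ![4, 6, 8, 12, 10, 5], ![2, 3, 4, 6, 5, 4]]

theorem wt_sum : ∀ i j : Fin 6, (∑ x : I27, wt x i.val * wt x j.val) = 6 * Ca i j := by
  decide +kernel

theorem CaKa : ∀ i k : Fin 6, (∑ j, Ca i j * Ka j k) = if i = k then 3 else 0 := by
  decide +kernel

theorem tr_HH (i j : Fin 6) : (Hm F i.val * Hm F j.val).trace = ((6 * Ca i j : ℤ) : F) := by
  unfold Hm
  rw [Matrix.diagonal_mul_diagonal, Matrix.trace_diagonal, ← wt_sum, Int.cast_sum]
  refine Finset.sum_congr rfl fun x _ => ?_
  rw [Int.cast_mul]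

end

section
variable {F : Type*} [Field F]

theorem tr_comb_N (c : chevE6.Idx → F) (s : Fin chevE6.nroots) :
    (comb c * Nm F s.val).trace = 6 * c (Sum.inr (ng s)) := by
  have hs : s.val < 72 := s.isLt
  rw [comb_split, add_mul, Matrix.trace_add, Matrix.sum_mul, Matrix.sum_mul, Matrix.trace_sum, Matrix.trace_sum]
  rw [Finset.sum_eq_zero fun i _ => by rw [Matrix.smul_mul, Matrix.trace_smul, tr_HN hs, smul_zero], zero_add]
  rw [Finset.sum_eq_single (ng s)]
  · rw [Matrix.smul_mul, Matrix.trace_smul]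
    have := tr_NN' (F := F) (r := 71 - s.val) (by omega)
    rw [show 71 - (71 - s.val) = s.val by omega] at this
    have e : (ng s).val = 71 - s.val := rfl
    rw [e, this, smul_eq_mul, mul_comm]
  · intro r _ hr
    rw [Matrix.smul_mul, Matrix.trace_smul, tr_NN (lt72 r) hs, smul_zero]
    intro h
    apply hr
    apply Fin.ext
    show r.val = 71 - s.val
    omega
  · intro h
    exact absurd (Finset.mem_univ _) h

/-- **the trace form is nondegenerate** -/
theorem eq_zero_of_trace (h2 : (2 : F) ≠ 0) (h3 : (3 : F) ≠ 0) {c : chevE6.Idx → F}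
    (h : ∀ d : chevE6.Idx → F, (comb c * comb d).trace = 0) : c = 0 := by
  have h6 : (6 : F) ≠ 0 := by
    have := mul_ne_zero h2 h3
    norm_num at this
    exact this
  have hB : ∀ row, (comb c * B F row).trace = 0 := by
    intro row
    have h1 := h (Pi.single row 1)
    have h4 : comb (Pi.single row 1 : chevE6.Idx → F) = B F row := by
      rw [comb_def, Finset.sum_eq_single row]
      · rw [Pi.single_eq_same, one_smul]
      · intro r _ hr
        rw [Pi.single_eq_of_ne hr, zero_smul]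
      · intro h
        exact absurd (Finset.mem_univ _) h
    rwa [h4] at h1
  have hr : ∀ r : Fin chevE6.nroots, c (Sum.inr r) = 0 := by
    intro r
    have h1 : (comb c * Nm F (ng r).val).trace = 0 := hB (Sum.inr (ng r))
    rw [tr_comb_N, ng_ng] at h1
    exact (mul_eq_zero.1 h1).resolve_left h6
  have hi : ∀ j : Fin 6, ∑ i : Fin 6, c (Sum.inl (i : Fin chevE6.rank)) * ((Ca i j : ℤ) : F) = 0 := by
    intro j
    have h1 : (comb c * Hm F j.val).trace = 0 := hB (Sum.inl (j : Fin chevE6.rank))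
    rw [comb_split, add_mul, Matrix.trace_add, Matrix.sum_mul, Matrix.sum_mul, Matrix.trace_sum, Matrix.trace_sum] at h1
    rw [Finset.sum_eq_zero (s := (Finset.univ : Finset (Fin chevE6.nroots))) fun r _ => by
      rw [hr r, zero_smul, zero_mul, Matrix.trace_zero], add_zero] at h1
    have h4 : ∀ i : Fin chevE6.rank, (c (Sum.inl i) • Hm F i.val * Hm F j.val).trace =
        6 * (c (Sum.inl i) * ((Ca i j : ℤ) : F)) := by
      intro i
      rw [Matrix.smul_mul, Matrix.trace_smul, smul_eq_mul]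
      have := tr_HH (F := F) i j
      rw [this, Int.cast_mul]
      push_cast
      ring
    rw [Finset.sum_congr rfl fun i _ => h4 i, ← Finset.mul_sum] at h1
    exact (mul_eq_zero.1 h1).resolve_left h6
  have hl : ∀ k : Fin 6, c (Sum.inl (k : Fin chevE6.rank)) = 0 := by
    intro k
    have h1 : ∑ j : Fin 6, (∑ i : Fin 6, c (Sum.inl (i : Fin chevE6.rank)) * ((Ca i j : ℤ) : F)) * ((Ka j k : ℤ) : F) = 0 :=
      Finset.sum_eq_zero fun j _ => by rw [hi j, zero_mul]
    have h4 : ∑ j : Fin 6, (∑ i : Fin 6, c (Sum.inl (i : Fin chevE6.rank)) * ((Ca i j : ℤ) : F)) * ((Ka j k : ℤ) : F) =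
        ∑ i : Fin 6, c (Sum.inl (i : Fin chevE6.rank)) * ((∑ j, Ca i j * Ka j k : ℤ) : F) := by
      simp only [Finset.sum_mul, Int.cast_sum, Int.cast_mul, Finset.mul_sum]
      rw [Finset.sum_comm]
      refine Finset.sum_congr rfl fun i _ => Finset.sum_congr rfl fun j _ => ?_
      ring
    rw [h4, Finset.sum_eq_single k] at h1
    · rw [CaKa, if_pos rfl] at h1
      have h5 : ((3 : ℤ) : F) ≠ 0 := by
        rw [Int.cast_ofNat]
        exact h3
      exact (mul_eq_zero.1 h1).resolve_right h5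
    · intro i _ hik
      rw [CaKa, if_neg hik, Int.cast_zero, mul_zero]
    · intro h
      exact absurd (Finset.mem_univ _) h
  funext row
  rcases row with i | r
  · exact hl i
  · exact hr r

end

end Cfsg.Agent.H251.E6
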