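import Cfsg.Agent.H251.E6.LInv3

/-!
# Invariants of a cover of `A₇` on the adjoint module, characteristic 5 (helper251, S5927)
-/

set_option autoImplicit false

namespace Cfsg.Agent.H251.E6

open Cfsg Cfsg.Lie Module Equiv
open Cfsg.Agent.ChevalleyStructure.E6Min.Tables Cfsg.Agent.ChevalleyStructure.E6Min.Basic
  Cfsg.Agent.ChevalleyStructure.E6Min.Adjoint
open Cfsg.Agent.H952.F4 (ev sh cr tf GenT)
open Cfsg.Agent.H163.E6
open Cfsg.Agent.H952.F4.Kill (zz cc g1 r3 y7 z7)
open scoped Matrix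

universe u

/-! ### averages over a list of words -/

section List

/-- words in two letters, coded by numbers -/
def dec {G : Type*} [Group G] (a b : G) : ℕ → ℕ → G
  | 0, _ => 1
  | k + 1, v => if v ≤ 1 then 1 else (if v % 2 = 0 then a else b) * dec a b k (v / 2)

variable {K G V : Type*} [Field K] [Group G] [AddCommGroup V] [Module K V] [FiniteDimensional K V]

/-- the vectors fixed by two elements -/
def fixU (ρ : Representation K G V) (a b : G) : Submodule K V :=
  End.eigenspace (ρ a) 1 ⊓ End.eigenspace (ρ b) 1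

omit [FiniteDimensional K V] in
theorem mem_fixU {ρ : Representation K G V} {a b : G} {v : V} : v ∈ fixU ρ a b ↔ ρ a v = v ∧ ρ b v = v := by
  rw [fixU, Submodule.mem_inf, End.mem_eigenspace_iff, End.mem_eigenspace_iff, one_smul]

omit [FiniteDimensional K V] in
theorem dec_fix {ρ : Representation K G V} {a b : G} {v : V} (hv : v ∈ fixU ρ a b) : ∀ k m, ρ (dec a b k m) v = v := by
  rw [mem_fixU] at hv
  intro k
  induction k with
  | zero =>
    intro m
    rw [dec, map_one, Module.End.one_apply]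
  | succ k ih =>
    intro m
    rw [dec]
    split_ifs
    · rw [map_one, Module.End.one_apply]
    · rw [map_mul, Module.End.mul_apply, ih, hv.1]
    · rw [map_mul, Module.End.mul_apply, ih, hv.2]

theorem avg_list (ρ : Representation K G V) (a b : G) (tab : List (ℕ × ℕ × ℕ × ℕ × ℕ)) (τ : ℕ → ℤ)
    (h : ∀ t ∈ tab, a * dec a b 16 t.1 = dec a b 16 t.2.1 ∧ b * dec a b 16 t.1 = dec a b 16 t.2.2.1 ∧
      dec a b 16 t.1 * dec a b 16 t.2.2.2.2 = dec a b 16 t.2.2.2.2 * dec a b 16 t.2.2.2.1)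
    (px : (tab.map fun t => t.2.1).Perm (tab.map fun t => t.1))
    (py : (tab.map fun t => t.2.2.1).Perm (tab.map fun t => t.1))
    (htr : ∀ t ∈ tab, LinearMap.trace K V (ρ (dec a b 16 t.2.2.2.1)) = ((τ t.2.2.2.1 : ℤ) : K))
    (hN : ((tab.length : ℕ) : K) ≠ 0) :
    (((tab.map fun t => τ t.2.2.2.1).sum : ℤ) : K) = (tab.length : K) * (finrank K (fixU ρ a b) : K) := by
  set E : Module.End K V := (tab.map fun t => ρ (dec a b 16 t.1)).sum with hE
  have hEn : E = ((tab.map fun t => t.1).map fun m => ρ (dec a b 16 m)).sum := by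
    rw [List.map_map]; rfl
  have hax : ρ a * E = E := by
    rw [hE, ← List.sum_map_mul_left]
    have e1 : (tab.map fun t => ρ a * ρ (dec a b 16 t.1)) = (tab.map fun t => t.2.1).map fun m => ρ (dec a b 16 m) := by
      rw [List.map_map]
      refine List.map_congr_left fun t ht => ?_
      rw [← map_mul, (h t ht).1]
      rfl
    rw [e1, (px.map _).sum_eq, List.map_map]
    rfl
  have hbx : ρ b * E = E := by
    rw [hE, ← List.sum_map_mul_left]
    have e1 : (tab.map fun t => ρ b * ρ (dec a b 16 t.1)) = (tab.map fun t => t.2.2.1).map fun m => ρ (dec a b 16 m) := by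
      rw [List.map_map]
      refine List.map_congr_left fun t ht => ?_
      rw [← map_mul, (h t ht).2.1]
      rfl
    rw [e1, (py.map _).sum_eq, List.map_map]
    rfl
  have hmem : ∀ v, E v ∈ fixU ρ a b := fun v => by
    rw [mem_fixU]
    constructor
    · rw [← Module.End.mul_apply, hax]
    · rw [← Module.End.mul_apply, hbx]
  have hfix : ∀ v ∈ fixU ρ a b, E v = (tab.length : K) • v := by
    intro v hv
    rw [hE]
    clear hax hbx hmem hEn hE htr hN px py h
    induction tab with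
    | nil => simp
    | cons t tab ih =>
      rw [List.map_cons, List.sum_cons, LinearMap.add_apply, ih, dec_fix hv, List.length_cons, Nat.cast_succ, add_smul,
        one_smul, add_comm]
  have hproj : LinearMap.IsProj (fixU ρ a b) ((tab.length : K)⁻¹ • E) := by
    constructor
    · intro v
      exact Submodule.smul_mem _ _ (hmem v)
    · intro v hv
      rw [LinearMap.smul_apply, hfix v hv, smul_smul, inv_mul_cancel₀ hN, one_smul]
  have h1 := LinearMap.IsProj.trace hproj
  rw [map_smul, smul_eq_mul] at h1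
  have h2 : LinearMap.trace K V E = (((tab.map fun t => τ t.2.2.2.1).sum : ℤ) : K) := by
    rw [hE]
    clear hax hbx hmem hEn hE hN px py hfix hproj h1
    induction tab with
    | nil => simp
    | cons t tab ih =>
      rw [List.map_cons, List.sum_cons, map_add, List.map_cons, List.sum_cons, Int.cast_add,
        ih (fun t' ht' => h t' (List.mem_cons_of_mem _ ht')) (fun t' ht' => htr t' (List.mem_cons_of_mem _ ht')),
        ← htr t List.mem_cons_self]
      congr 1
      have h3 := (h t List.mem_cons_self).2.2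
      rw [eq_mul_inv_of_mul_eq h3, tr_conj]
  rw [← h2, ← h1, ← mul_assoc, mul_inv_cancel₀ hN, one_mul]

end List

/-! ### the subgroups -/

/-- the involution generating `L₃(2)` with `y7` -/
def gx : A7 :=
  ⟨⟨![1, 0, 2, 3, 6, 5, 4], ![1, 0, 2, 3, 6, 5, 4], by decide, by decide⟩, by
    rw [Equiv.Perm.mem_alternatingGroup]; decide⟩

/-- the involution generating `S₄` with `y7` -/
def gs : A7 :=
  ⟨⟨![0, 6, 3, 2, 4, 5, 1], ![0, 6, 3, 2, 4, 5, 1], by decide, by decide⟩, by
    rw [Equiv.Perm.mem_alternatingGroup]; decide⟩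

/-- the group `L₃(2)`: (element, x·element, y·element, representative, conjugator) -/
def tabS : List (ℕ × ℕ × ℕ × ℕ × ℕ) :=
  [(1, 2, 3, 1, 1), (2, 1, 5, 2, 1), (3, 6, 7, 3, 1), (5, 10, 11, 5, 1), (6, 3, 13, 5, 2),
   (7, 14, 1, 3, 5482), (10, 5, 21, 3, 2), (11, 22, 2, 11, 1), (13, 26, 27, 11, 5), (14, 7, 29, 11, 2),
   (21, 42, 43, 5, 3418), (22, 11, 45, 3, 2741), (26, 13, 53, 5, 1709), (27, 54, 6, 2, 7), (29, 58, 59, 2, 3),
   (42, 21, 85, 11, 10), (43, 86, 10, 43, 1), (45, 90, 91, 43, 5), (53, 106, 107, 43, 7),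
   (54, 27, 109, 43, 2), (58, 29, 117, 43, 3), (59, 118, 14, 5, 3), (85, 170, 171, 11, 5546),
   (86, 43, 173, 2, 14), (90, 45, 181, 2, 6), (91, 182, 22, 11, 2733), (106, 53, 213, 11, 2773),
   (107, 214, 26, 3, 11), (109, 218, 219, 11, 1366), (117, 234, 235, 3, 5), (118, 59, 237, 11, 5466),
   (170, 85, 341, 43, 14), (171, 342, 42, 43, 45), (173, 346, 347, 43, 181), (181, 362, 363, 43, 182),
   (182, 91, 365, 5, 6), (213, 426, 427, 43, 22), (214, 107, 429, 43, 90), (218, 109, 437, 43, 362),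
   (219, 438, 54, 3, 1370), (234, 117, 469, 43, 91), (235, 470, 58, 5, 854), (237, 474, 475, 3, 5483),
   (341, 475, 683, 5, 3498), (342, 171, 685, 3, 22), (346, 173, 693, 11, 683), (347, 694, 86, 43, 58),
   (362, 181, 725, 3, 10), (363, 726, 90, 43, 234), (365, 730, 426, 43, 59), (426, 213, 182, 5, 1749),
   (427, 854, 106, 11, 43), (429, 858, 859, 43, 235), (437, 874, 875, 43, 237), (438, 219, 877, 43, 29),
   (469, 938, 939, 11, 21), (470, 235, 941, 43, 117), (474, 237, 949, 43, 118), (475, 341, 118, 43, 11),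
   (683, 1366, 170, 5, 13), (685, 1370, 1371, 5, 53), (693, 1386, 1387, 5, 213), (694, 347, 1389, 3, 685),
   (725, 1450, 1451, 5, 54), (726, 363, 1453, 5, 427), (730, 365, 1461, 3, 2923), (854, 427, 1709, 5, 26),
   (858, 429, 1717, 5, 106), (859, 1718, 214, 2, 59), (874, 437, 1749, 5, 219), (875, 1387, 218, 2, 27),
   (877, 1754, 938, 5, 874), (938, 469, 438, 5, 27), (939, 1878, 234, 11, 1386), (941, 1453, 1883, 2, 29),
   (949, 1898, 1899, 2, 13), (1366, 683, 2733, 11, 86), (1370, 685, 2741, 43, 470),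
   (1371, 2742, 342, 3, 1389), (1386, 693, 2773, 43, 474), (1387, 875, 346, 2, 1709),
   (1389, 2778, 1450, 3, 5557), (1450, 725, 694, 11, 42), (1451, 2902, 362, 3, 725),
   (1453, 941, 2907, 2, 3419), (1461, 2922, 2923, 3, 2902), (1709, 3418, 3419, 3, 694),
   (1717, 3434, 3435, 2, 854), (1718, 859, 3437, 3, 2778), (1749, 3498, 3499, 3, 362),
   (1754, 877, 3509, 3, 11114), (1878, 939, 3757, 3, 1450), (1883, 3766, 470, 43, 363),
   (1898, 949, 3797, 3, 1451), (1899, 3435, 474, 43, 365), (2733, 5466, 5467, 3, 730),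
   (2741, 5482, 5483, 3, 170), (2742, 1371, 5485, 2, 118), (2773, 5546, 5547, 3, 171),
   (2778, 1389, 5557, 5, 437), (2902, 1451, 5805, 11, 693), (2907, 5814, 726, 11, 170),
   (2922, 1461, 5845, 2, 26), (2923, 5483, 730, 11, 347), (3418, 1709, 6837, 3, 365),
   (3419, 6838, 854, 3, 91), (3434, 1717, 6869, 3, 85), (3435, 1899, 858, 11, 341),
   (3437, 6874, 3498, 11, 171), (3498, 1749, 1718, 3, 342), (3499, 6998, 874, 3, 43),
   (3509, 7018, 7019, 11, 173), (3757, 7514, 7515, 3, 45), (3766, 1883, 7533, 11, 85),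
   (3797, 7594, 7595, 3, 21), (5466, 2733, 10933, 3, 347), (5467, 10934, 1366, 3, 5805),
   (5482, 2741, 10965, 2, 427), (5483, 2923, 1370, 43, 730), (5485, 10970, 5546, 3, 5546),
   (5546, 2773, 2742, 3, 181), (5547, 11094, 1386, 43, 2907), (5557, 11114, 11115, 3, 5547),
   (5805, 11610, 11611, 43, 2922), (5814, 2907, 11629, 43, 726), (5845, 11690, 11691, 3, 11691),
   (6837, 13674, 13675, 43, 2923), (6838, 3419, 11610, 3, 5485), (6869, 13738, 13739, 43, 1453),
   (6874, 3437, 13749, 3, 2773), (6998, 3499, 13997, 43, 5814), (7018, 3509, 11094, 3, 5845),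
   (7019, 13675, 1754, 3, 1461), (7514, 3757, 15029, 43, 1461), (7515, 15030, 1878, 5, 107),
   (7533, 15066, 7594, 3, 1371), (7594, 3797, 3766, 3, 11115), (7595, 15190, 1898, 5, 109),
   (10933, 13739, 21867, 2, 53), (10934, 5467, 7514, 3, 182), (10965, 15029, 13674, 2, 213),
   (10970, 5485, 21941, 11, 342), (11094, 5547, 22189, 3, 86), (11114, 5557, 6998, 11, 346),
   (11115, 21867, 2778, 43, 3766), (11610, 5805, 13738, 3, 90), (11611, 23222, 2902, 3, 726),
   (11629, 23258, 11690, 43, 949), (11690, 5845, 5814, 3, 42), (11691, 23382, 2922, 3, 173),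
   (13674, 6837, 5482, 2, 106), (13675, 7019, 3418, 43, 1883), (13738, 6869, 6838, 2, 426),
   (13739, 10933, 3434, 43, 1899), (13749, 21941, 23382, 43, 3797), (13997, 27994, 11114, 3, 693),
   (15029, 10965, 10934, 43, 941), (15030, 7515, 27994, 3, 363), (15066, 7533, 23222, 43, 1898),
   (15190, 7595, 10970, 3, 346), (21867, 11115, 5466, 3, 2922), (21941, 13749, 15190, 43, 5845),
   (22189, 44378, 7018, 2, 107), (23222, 11611, 44378, 5, 214), (23258, 11629, 15030, 3, 2742),
   (23382, 11691, 6874, 5, 218), (27994, 13997, 23258, 2, 214), (44378, 22189, 15066, 3, 1386)]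

/-- the group `S₄` -/
def tabQ : List (ℕ × ℕ × ℕ × ℕ × ℕ) :=
  [(1, 2, 3, 1, 1), (2, 1, 5, 2, 1), (3, 6, 7, 3, 1), (5, 10, 11, 5, 1), (6, 3, 13, 5, 2), (7, 14, 1, 3, 86),
   (10, 5, 21, 3, 2), (11, 22, 2, 5, 13), (13, 26, 27, 5, 6), (14, 7, 29, 5, 26), (21, 42, 43, 21, 1),
   (22, 11, 45, 3, 43), (26, 13, 22, 21, 2), (27, 54, 6, 2, 7), (29, 58, 42, 2, 3), (42, 21, 14, 5, 3),
   (43, 86, 10, 3, 10), (45, 90, 26, 3, 11), (54, 27, 109, 3, 5), (58, 29, 54, 3, 21), (86, 43, 173, 2, 14),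
   (90, 45, 86, 2, 6), (109, 173, 58, 21, 3), (173, 109, 90, 2, 13)]

set_option maxRecDepth 100000 in
theorem tabS_px : (tabS.map fun t => t.2.1).Perm (tabS.map fun t => t.1) := by decide +kernel
set_option maxRecDepth 100000 in
theorem tabS_py : (tabS.map fun t => t.2.2.1).Perm (tabS.map fun t => t.1) := by decide +kernel
set_option maxRecDepth 100000 in
theorem tabQ_px : (tabQ.map fun t => t.2.1).Perm (tabQ.map fun t => t.1) := by decide +kernel
set_option maxRecDepth 100000 in
theorem tabQ_py : (tabQ.map fun t => t.2.2.1).Perm (tabQ.map fun t => t.1) := by decide +kernel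

set_option maxRecDepth 100000 in
theorem tabS_rep : ∀ t ∈ tabS, t.2.2.2.1 = 1 ∨ t.2.2.2.1 = 2 ∨ t.2.2.2.1 = 3 ∨ t.2.2.2.1 = 5 ∨ t.2.2.2.1 = 11 ∨
    t.2.2.2.1 = 43 := by decide +kernel

set_option maxRecDepth 100000 in
theorem tabQ_rep : ∀ t ∈ tabQ, t.2.2.2.1 = 1 ∨ t.2.2.2.1 = 2 ∨ t.2.2.2.1 = 3 ∨ t.2.2.2.1 = 5 ∨ t.2.2.2.1 = 21 := by
  decide +kernel

theorem tabQ_ok : ∀ t ∈ tabQ, gs * dec gs y7 16 t.1 = dec gs y7 16 t.2.1 ∧ y7 * dec gs y7 16 t.1 = dec gs y7 16 t.2.2.1 ∧
      dec gs y7 16 t.1 * dec gs y7 16 t.2.2.2.2 = dec gs y7 16 t.2.2.2.2 * dec gs y7 16 t.2.2.2.1 := by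
  decide +kernel

theorem tabS_ok : ∀ t ∈ tabS, gx * dec gx y7 16 t.1 = dec gx y7 16 t.2.1 ∧ y7 * dec gx y7 16 t.1 = dec gx y7 16 t.2.2.1 ∧
      dec gx y7 16 t.1 * dec gx y7 16 t.2.2.2.2 = dec gx y7 16 t.2.2.2.2 * dec gx y7 16 t.2.2.2.1 := by
  decide +kernel

theorem tabS_len : tabS.length = 168 := by decide +kernel
theorem tabQ_len : tabQ.length = 24 := by decide +kernel

/-- traces by representative -/
def tauS (m : ℕ) : ℤ := if m = 1 then 78 else if m = 2 then -2 else if m = 3 then 6 else if m = 43 then 2 else 1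

/-- traces by representative -/
def tauQ (m : ℕ) : ℤ := if m = 1 then 78 else if m = 2 then -2 else if m = 3 then 6 else if m = 5 then 2 else -2

theorem tabS_sum : (tabS.map fun t => tauS t.2.2.2.1).sum = 504 := by decide +kernel
theorem tabQ_sum : (tabQ.map fun t => tauQ t.2.2.2.1).sum = 120 := by decide +kernel

theorem gx_type : (gx : Perm (Fin 7)).cycleType = {2, 2} := by decide +kernel
theorem gs_type : (gs : Perm (Fin 7)).cycleType = {2, 2} := by decide +kernel
theorem gxy_type : ((gx * y7 : A7) : Perm (Fin 7)).cycleType = {7} := by decide +kernel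
theorem s5_t : ((dec gx y7 16 5 : A7) : Perm (Fin 7)).cycleType = {7} := by decide +kernel
theorem s11_t : ((dec gx y7 16 11 : A7) : Perm (Fin 7)).cycleType = {7} := by decide +kernel
theorem s43_t : ((dec gx y7 16 43 : A7) : Perm (Fin 7)).cycleType = {4, 2} := by decide +kernel
theorem q5_t : ((dec gs y7 16 5 : A7) : Perm (Fin 7)).cycleType = {4, 2} := by decide +kernel
theorem q21_t : ((dec gs y7 16 21 : A7) : Perm (Fin 7)).cycleType = {2, 2} := by decide +kernel
theorem q21_m : ((gs * dec gs y7 16 21 : A7) : Perm (Fin 7)).cycleType = {4, 2} := by decide +kernel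
theorem s5_c : gx * dec gx y7 16 5 * gx⁻¹ = gx * y7 := by decide +kernel
theorem s11_c : dec gx y7 16 11 * (gx * y7) = 1 := by decide +kernel
theorem gs_word : dec gx y7 16 86 = gs := by decide +kernel

/-- conjugation by an odd permutation centralising the `S₄` -/
def ct : Perm (Fin 7) := ⟨![0, 3, 6, 1, 5, 4, 2], ![0, 3, 6, 1, 5, 4, 2], by decide, by decide⟩

/-- conjugation by `ct` -/
def cj : A7 →* A7 where
  toFun g := ⟨ct * (g : Perm (Fin 7)) * ct⁻¹, by
    rw [Perm.mem_alternatingGroup, Perm.sign_mul, Perm.sign_mul, Perm.sign_inv,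
      Perm.mem_alternatingGroup.1 g.2, mul_one, Int.units_mul_self]⟩
  map_one' := Subtype.ext (by simp)
  map_mul' g h := Subtype.ext (by
    show ct * ((g * h : A7) : Perm (Fin 7)) * ct⁻¹ = ct * (g : Perm (Fin 7)) * ct⁻¹ * (ct * (h : Perm (Fin 7)) * ct⁻¹)
    rw [Subgroup.coe_mul]
    group)

theorem coe_cj (g : A7) : (cj g : Perm (Fin 7)) = ct * (g : Perm (Fin 7)) * ct⁻¹ := rfl

theorem type_cj (g : A7) : (cj g : Perm (Fin 7)).cycleType = (g : Perm (Fin 7)).cycleType := by
  rw [coe_cj, Perm.cycleType_conj]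

theorem cj_inj : Function.Injective cj := by
  intro g h e
  have h1 := congrArg Subtype.val e
  have h2 : ct * (g : Perm (Fin 7)) * ct⁻¹ = ct * (h : Perm (Fin 7)) * ct⁻¹ := h1
  exact Subtype.ext (mul_left_cancel (mul_right_cancel h2))

theorem cj_y : cj y7 = y7 := by decide +kernel
theorem cj_s : cj gs = gs := by decide +kernel

/-- the star elements as words -/
theorem stars : ∀ k : Fin 7, k ≠ 0 → ∃ l : List (Fin 3),
    (((l.map (![gx, y7, cj gx] : Fin 3 → A7)).prod : A7) : Perm (Fin 7)) = swap 0 1 * swap 0 k := by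
  intro k hk
  fin_cases k
  · exact absurd rfl hk
  · exact ⟨[], by decide +kernel⟩
  · exact ⟨[0, 1, 2, 0, 1, 0, 2, 0], by decide +kernel⟩
  · exact ⟨[2, 0, 2, 0], by decide +kernel⟩
  · exact ⟨[2, 0, 1, 0, 2, 1], by decide +kernel⟩
  · exact ⟨[2, 0, 1, 2, 0, 1], by decide +kernel⟩
  · exact ⟨[2, 0, 1, 1, 2, 0, 1, 1], by decide +kernel⟩

/-! ### dimensions -/

section Main

variable {F : Type u} [Field F] [Finite F] {φ : A7 →* ↥(chevE6.group F)}

theorem Cls.comp (hC : Cls φ) : Cls (φ.comp cj) where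
  two g hg := hC.two (cj g) ((type_cj g).trans hg)
  three g hg := hC.three (cj g) (by rw [type_cj g]; exact hg)
  four g hg := hC.four (cj g) ((type_cj g).trans hg)

theorem seven_tr (p : ℕ) [Fact p.Prime] [CharP F p] (hp : p ≠ 7) (hφ : Function.Injective φ) {a : A7}
    (ha : (a : Perm (Fin 7)).cycleType = {7}) :
    (ev (rho φ a) 1 = 12 ∧ LinearMap.trace F _ (rho φ a) = 1) ∨ 18 ≤ ev (rho φ a) 1 := by
  have h7 : (a : A7) ^ 7 = 1 := H952.F4.SixFive.pow_of_ct a ha
  have hne : a ≠ 1 := by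
    rintro rfl
    rw [Subgroup.coe_one, Perm.cycleType_one] at ha
    exact absurd ha (by decide)
  obtain ⟨τ, hτ⟩ := isConj_iff.1 (Perm.isConj_iff_cycleType_eq.2 (z7_type.trans ha.symm))
  have hb : τ * (y7 : Perm (Fin 7)) * τ⁻¹ ∈ alternatingGroup (Fin 7) := by
    rw [Perm.mem_alternatingGroup, Perm.sign_mul, Perm.sign_mul, Perm.sign_inv]
    have h1 := Perm.mem_alternatingGroup.1 y7.2
    rw [h1, mul_one, Int.units_mul_self]
  set b : A7 := ⟨τ * (y7 : Perm (Fin 7)) * τ⁻¹, hb⟩ with hbdef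
  have hba : b * a * b⁻¹ = a ^ 2 := by
    apply Subtype.ext
    show τ * (y7 : Perm (Fin 7)) * τ⁻¹ * (a : Perm (Fin 7)) * (τ * (y7 : Perm (Fin 7)) * τ⁻¹)⁻¹ = (a : Perm (Fin 7)) ^ 2
    rw [← hτ, conj_pow]
    have h1 : (y7 : Perm (Fin 7)) * (z7 : Perm (Fin 7)) * (y7 : Perm (Fin 7))⁻¹ = (z7 : Perm (Fin 7)) ^ 2 :=
      congrArg Subtype.val H952.F4.Kill.y7_z7
    rw [← h1]
    group
  obtain ⟨x, hx, h1, hr⟩ := lift_pow φ (a := a) (k := 7) (m := 5) (s := 2) h7 (by norm_num)
  obtain ⟨y, hy⟩ := hr b 2 hba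
  have hne' : x ≠ 1 := by
    rintro rfl
    rw [map_one] at hx
    exact hne (hφ (hx.symm.trans (map_one φ).symm))
  rw [rho_eq hx]
  rcases (Tor.tab p).seven_rat hp x hne' h1 ⟨y, hy⟩ with h | h | h
  · exact Or.inr (by omega)
  · exact Or.inl ⟨h.2.1, h.2.2.2⟩
  · exact Or.inr (by omega)

/-- the unit of an element -/
noncomputable abbrev un (φ : A7 →* ↥(chevE6.group F)) : A7 →* (Module.End F (chevE6.Idx → F))ˣ := (rho φ).toHomUnits

theorem h_small [CharP F 5] (n : ℕ) (h : ¬ 5 ∣ n) : ((n : ℕ) : F) ≠ 0 := fun h0 =>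
  h ((CharP.cast_eq_zero_iff F 5 n).1 h0)

theorem ev_inv' (ρ : Representation F A7 (chevE6.Idx → F)) {a b : A7} (h : a * b = 1) :
    ev (ρ a) 1 = ev (ρ b) 1 := by
  have h' : b * a = 1 := by
    rw [← inv_eq_of_mul_eq_one_right h, inv_mul_cancel]
  have e : End.eigenspace (ρ a) 1 = End.eigenspace (ρ b) 1 := by
    ext v
    rw [End.mem_eigenspace_iff, End.mem_eigenspace_iff, one_smul]
    constructor
    · intro hv
      nth_rw 1 [← hv]
      rw [← Module.End.mul_apply, ← map_mul, h', map_one, Module.End.one_apply]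
    · intro hv
      nth_rw 1 [← hv]
      rw [← Module.End.mul_apply, ← map_mul, h, map_one, Module.End.one_apply]
  unfold ev
  rw [e]

theorem dimS [CharP F 5] (hφ : Function.Injective φ) (hC : Cls φ) : 3 ≤ finrank F (fixU (rho φ) gx y7) := by
  haveI : Fact (Nat.Prime 5) := ⟨by norm_num⟩
  have h2 : (2 : F) ≠ 0 := by
    have := h_small (F := F) 2 (by norm_num)
    exact_mod_cast this
  have h3 : (3 : F) ≠ 0 := by
    have := h_small (F := F) 3 (by norm_num)
    exact_mod_cast this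
  have hx := hC.two gx gx_type
  have hy := hC.three y7 (Or.inr y7_type)
  rcases seven_tr 5 (by norm_num) hφ gxy_type with h7 | h7
  · have h5 : LinearMap.trace F _ (rho φ (dec gx y7 16 5)) = 1 := by
      rw [← tr_conj (rho φ) gx, s5_c]
      exact h7.2
    have h11 : LinearMap.trace F _ (rho φ (dec gx y7 16 11)) = 1 := by
      rcases seven_tr 5 (by norm_num) hφ s11_t with h | h
      · exact h.2
      · rw [ev_inv' (rho φ) s11_c, h7.1] at h
        omega
    have key := avg_list (rho φ) gx y7 tabS tauS tabS_ok tabS_px tabS_py (fun t ht => by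
      rcases tabS_rep t ht with h | h | h | h | h | h <;> rw [h]
      · have e : dec gx y7 16 1 = 1 := by decide +kernel
        rw [e, map_one, tr_one']
        norm_num [tauS]
      · have e : dec gx y7 16 2 = gx := by decide +kernel
        rw [e, hx.2]
        norm_num [tauS]
      · have e : dec gx y7 16 3 = y7 := by decide +kernel
        rw [e, hy.2]
        norm_num [tauS]
      · rw [h5]
        norm_num [tauS]
      · rw [h11]
        norm_num [tauS]
      · rw [(hC.four _ s43_t).2]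
        norm_num [tauS]) (by rw [tabS_len]; exact h_small 168 (by norm_num))
    rw [tabS_sum, tabS_len] at key
    have hd : ((finrank F (fixU (rho φ) gx y7) : ℕ) : F) = ((3 : ℕ) : F) := by
      have h168 : ((168 : ℕ) : F) ≠ 0 := h_small 168 (by norm_num)
      apply mul_left_cancel₀ h168
      rw [← key]
      push_cast
      norm_num
    rw [CharP.natCast_eq_natCast F 5, Nat.ModEq] at hd
    omega
  · have hs := scott_units (un φ gx) (un φ y7) (Bf F) (Bf_nondeg h2 h3) (fun v w => Bf_LK (φ gx) v w)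
      (fun v w => Bf_LK (φ y7) v w) (W := fixU (rho φ) gx y7) (fun v h4 h5 => mem_fixU.2 ⟨h4, h5⟩)
    rw [← map_mul] at hs
    have e1 : ev ((un φ gx : (Module.End F (chevE6.Idx → F))ˣ) : Module.End F (chevE6.Idx → F)) 1 = 38 := hx.1
    have e2 : ev ((un φ y7 : (Module.End F (chevE6.Idx → F))ˣ) : Module.End F (chevE6.Idx → F)) 1 = 30 := hy.1
    have e3 : 18 ≤ ev ((un φ (gx * y7) : (Module.End F (chevE6.Idx → F))ˣ) : Module.End F (chevE6.Idx → F)) 1 := h7
    rw [e1, e2, finrank_L] at hs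
    omega

theorem dimQ [CharP F 5] (hC : Cls φ) : finrank F (fixU (rho φ) gs y7) ≤ 5 := by
  haveI : Fact (Nat.Prime 5) := ⟨by norm_num⟩
  have h2 : (2 : F) ≠ 0 := by
    have := h_small (F := F) 2 (by norm_num)
    exact_mod_cast this
  have h3 : (3 : F) ≠ 0 := by
    have := h_small (F := F) 3 (by norm_num)
    exact_mod_cast this
  have key := avg_list (rho φ) gs y7 tabQ tauQ tabQ_ok tabQ_px tabQ_py (fun t ht => by
    rcases tabQ_rep t ht with h | h | h | h | h <;> rw [h]
    · have e : dec gs y7 16 1 = 1 := by decide +kernel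
      rw [e, map_one, tr_one']
      norm_num [tauQ]
    · have e : dec gs y7 16 2 = gs := by decide +kernel
      rw [e, (hC.two gs gs_type).2]
      norm_num [tauQ]
    · have e : dec gs y7 16 3 = y7 := by decide +kernel
      rw [e, (hC.three y7 (Or.inr y7_type)).2]
      norm_num [tauQ]
    · rw [(hC.four _ q5_t).2]
      norm_num [tauQ]
    · rw [(hC.two _ q21_t).2]
      norm_num [tauQ]) (by rw [tabQ_len]; exact h_small 24 (by norm_num))
  rw [tabQ_sum, tabQ_len] at key
  have hd : ((finrank F (fixU (rho φ) gs y7) : ℕ) : F) = ((0 : ℕ) : F) := by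
    have h24 : ((24 : ℕ) : F) ≠ 0 := h_small 24 (by norm_num)
    apply mul_left_cancel₀ h24
    rw [← key]
    have h5 : ((5 : ℕ) : F) = 0 := CharP.cast_eq_zero F 5
    have : ((120 : ℤ) : F) = ((5 : ℕ) : F) * 24 := by push_cast; norm_num
    rw [this, h5]
    simp
  rw [CharP.natCast_eq_natCast F 5, Nat.ModEq] at hd
  have hle := dih_le h2 (un φ gs) (un φ (dec gs y7 16 21)) (Bf F) (Bf_nondeg h2 h3) (fun v w => Bf_LK (φ gs) v w)
    (fun v w => Bf_LK (φ (dec gs y7 16 21)) v w) (U := fixU (rho φ) gs y7) (fun v hv =>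
      ⟨(mem_fixU.1 hv).1, dec_fix hv 16 21⟩)
  have hev : ∀ g : A7, g * g = 1 → (g : Perm (Fin 7)).cycleType = {2, 2} → ev (rho φ g) (-1) = 40 := by
    intro g hg ht
    have h4 := ev_neg_add (X := rho φ g) h2 (by rw [← map_mul, hg, map_one])
    rw [finrank_L, (hC.two g ht).1] at h4
    omega
  rw [← map_mul] at hle
  have e1 : ev ((un φ gs : (Module.End F (chevE6.Idx → F))ˣ) : Module.End F (chevE6.Idx → F)) (-1) = 40 :=
    hev gs (by decide +kernel) gs_type
  have e2 : ev ((un φ (dec gs y7 16 21) : (Module.End F (chevE6.Idx → F))ˣ) : Module.End F (chevE6.Idx → F)) (-1) = 40 :=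
    hev _ (by decide +kernel) q21_t
  have e3 : ev ((un φ (gs * dec gs y7 16 21) : (Module.End F (chevE6.Idx → F))ˣ) : Module.End F (chevE6.Idx → F)) 1 = 20 :=
    (hC.four _ q21_m).1
  rw [e1, e2, e3, finrank_L] at hle
  omega

/-- **invariants on the adjoint module, characteristic 5** -/
theorem inv_ne_bot_five [CharP F 5] (hφ : Function.Injective φ) {ω : Fˣ} (hc : Cover φ ω) :
    (rho φ).invariants ≠ ⊥ := by
  haveI : Fact (Nat.Prime 5) := ⟨by norm_num⟩
  rcases cls_or 5 le_rfl hφ hc with h | hC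
  · exact h
  have d1 := dimS hφ hC
  have d2 : 3 ≤ finrank F (fixU (rho (φ.comp cj)) gx y7) := dimS (hφ.comp cj_inj) hC.comp
  have d3 := dimQ hC
  set U := fixU (rho φ) gx y7 with hU
  set U' := fixU (rho (φ.comp cj)) gx y7 with hU'
  set W := fixU (rho φ) gs y7 with hW
  have hle : U ⊔ U' ≤ W := by
    refine sup_le (fun v hv => ?_) (fun v hv => ?_)
    · rw [hW, mem_fixU]
      refine ⟨?_, (mem_fixU.1 hv).2⟩
      have := dec_fix hv 16 86
      rwa [gs_word] at this
    · rw [hW, mem_fixU]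
      have h1 := dec_fix hv 16 86
      rw [gs_word] at h1
      have h2 := (mem_fixU.1 hv).2
      have h1' : rho φ (cj gs) v = v := h1
      have h2' : rho φ (cj y7) v = v := h2
      rw [cj_s] at h1'
      rw [cj_y] at h2'
      exact ⟨h1', h2'⟩
  have h1 := Submodule.finrank_mono hle
  have h2 := Submodule.finrank_sup_add_finrank_inf_eq U U'
  have h3 : U ⊓ U' ≠ ⊥ := by
    intro h0
    rw [h0, finrank_bot] at h2
    omega
  obtain ⟨v, hv, hv0⟩ := Submodule.exists_mem_ne_zero_of_ne_bot h3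
  obtain ⟨hvU, hvU'⟩ := Submodule.mem_inf.1 hv
  rw [hU, mem_fixU] at hvU
  have hvx : rho φ (cj gx) v = v := (mem_fixU.1 hvU').1
  refine (Submodule.ne_bot_iff _).2 ⟨v, ?_, hv0⟩
  rw [Representation.mem_invariants]
  let S : Subgroup A7 :=
    { carrier := {g | rho φ g v = v}
      one_mem' := by
        show rho φ 1 v = v
        rw [map_one, Module.End.one_apply]
      mul_mem' := by
        intro a b ha hb
        show rho φ (a * b) v = v
        rw [map_mul, Module.End.mul_apply, hb, ha]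
      inv_mem' := by
        intro a ha
        show rho φ a⁻¹ v = v
        have ha' : rho φ a v = v := ha
        conv_lhs => rw [← ha']
        rw [← Module.End.mul_apply, ← map_mul, inv_mul_cancel, map_one, Module.End.one_apply] }
  intro g
  have hstar : ∀ k : Fin 7, k ≠ 0 → swap 0 1 * swap 0 k ∈ S.map (alternatingGroup (Fin 7)).subtype := by
    intro k hk
    obtain ⟨l, hl⟩ := stars k hk
    rw [← hl]
    refine ⟨(l.map (![gx, y7, cj gx] : Fin 3 → A7)).prod, Subgroup.list_prod_mem _ fun a ha => ?_, rfl⟩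
    obtain ⟨i, -, rfl⟩ := List.mem_map.1 ha
    fin_cases i
    · exact hvU.1
    · exact hvU.2
    · exact hvx
  obtain ⟨a, ha, ha'⟩ := H952.F4.Gen.mem_of_star (n := 5) (S.map (alternatingGroup (Fin 7)).subtype)
    (by
      rintro _ ⟨a, -, rfl⟩
      exact a.2) hstar g.2
  have : a = g := Subtype.ext ha'
  rw [← this]
  exact ha

/-- **a cover of `A₇` fixes a vector of the adjoint module, characteristic at least 5** -/
theorem inv_ne_bot (p : ℕ) [Fact p.Prime] [CharP F p] (hp : 5 ≤ p) (hφ : Function.Injective φ) {ω : Fˣ}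
    (hc : Cover φ ω) : (rho φ).invariants ≠ ⊥ := by
  by_cases h7 : 7 ≤ p
  · exact inv_ne_bot_big p h7 hφ hc
  have h56 : p = 5 ∨ p = 6 := by omega
  rcases h56 with rfl | rfl
  · exact inv_ne_bot_five hφ hc
  · exact absurd (Fact.out : Nat.Prime 6) (by norm_num)

end Main

end Cfsg.Agent.H251.E6
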