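import Mathlib

/-!
# Dimensions of fixed spaces of `A₅`, `A₆` (helper251, S5927)
-/

set_option autoImplicit false

namespace Cfsg.Agent.H251.E6

open Module Equiv Finset
open scoped Nat

section Avg

variable {K G V : Type*} [Field K] [Group G] [Fintype G] [AddCommGroup V] [Module K V] [FiniteDimensional K V]

theorem avg (ρ : Representation K G V) (h : ((Fintype.card G : ℕ) : K) ≠ 0) :
    ∑ g : G, LinearMap.trace K V (ρ g) = (Fintype.card G : K) * (finrank K ρ.invariants : K) := by
  have hinv : Invertible (Fintype.card G : K) := invertibleOfNonzero h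
  have h1 : LinearMap.trace K _ ρ.averageMap = (finrank K ρ.invariants : K) :=
    LinearMap.IsProj.trace ρ.isProj_averageMap
  have h2 : ρ.averageMap = ⅟(Fintype.card G : K) • ∑ g : G, ρ g := by
    unfold Representation.averageMap GroupAlgebra.average
    rw [map_smul, map_sum]
    congr 1
    refine Finset.sum_congr rfl fun g _ => ?_
    rw [Representation.asAlgebraHom_of]
  rw [← h1, h2, map_smul, map_sum, smul_eq_mul, ← mul_assoc, mul_invOf_self, one_mul]

end Avg

/-- sums of class functions over the alternating group -/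
theorem sum_types {K : Type*} [Field K] {n : ℕ} (S : Finset (Multiset ℕ)) (t : Multiset ℕ → K) (f : alternatingGroup (Fin n) → K)
    (hf : ∀ g : alternatingGroup (Fin n), (g : Perm (Fin n)).cycleType ∈ S → f g = t (g : Perm (Fin n)).cycleType)
    (hS : ∑ m ∈ S, #{g : alternatingGroup (Fin n) | (g : Perm (Fin n)).cycleType = m} =
      Fintype.card (alternatingGroup (Fin n))) :
    ∑ g, f g = ∑ m ∈ S, (#{g : alternatingGroup (Fin n) | (g : Perm (Fin n)).cycleType = m} : K) * t m := by
  classical
  have h1 : Finset.univ.filter (fun g : alternatingGroup (Fin n) => (g : Perm (Fin n)).cycleType ∈ S) = Finset.univ := by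
    rw [← Finset.card_eq_iff_eq_univ]
    rw [← hS]
    have hfib := Finset.card_eq_sum_card_fiberwise (f := fun g : alternatingGroup (Fin n) => (g : Perm (Fin n)).cycleType)
      (s := Finset.univ.filter (fun g : alternatingGroup (Fin n) => (g : Perm (Fin n)).cycleType ∈ S)) (t := S)
      (fun g hg => by
        have h2 := Finset.mem_coe.1 hg
        exact Finset.mem_coe.2 (Finset.mem_filter.1 h2).2)
    rw [hfib]
    refine Finset.sum_congr rfl fun m hm => ?_
    congr 1
    ext g
    simp only [Finset.mem_filter, Finset.mem_univ, true_and]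
    constructor
    · rintro ⟨-, h⟩; exact h
    · intro h; exact ⟨h ▸ hm, h⟩
  have hmaps : ∀ g ∈ (Finset.univ : Finset (alternatingGroup (Fin n))), (g : Perm (Fin n)).cycleType ∈ S := by
    intro g _
    have : g ∈ Finset.univ.filter (fun g : alternatingGroup (Fin n) => (g : Perm (Fin n)).cycleType ∈ S) := by
      rw [h1]; exact Finset.mem_univ _
    exact (Finset.mem_filter.1 this).2
  rw [← Finset.sum_fiberwise_of_maps_to hmaps]
  refine Finset.sum_congr rfl fun m _ => ?_
  rw [Finset.sum_congr rfl (g := fun _ => t m) fun g hg => by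
    rw [hf g (hmaps g (Finset.mem_univ _)), (Finset.mem_filter.1 hg).2]]
  rw [Finset.sum_const, nsmul_eq_mul]

theorem card_type {n : ℕ} (m : Multiset ℕ) (c : ℕ)
    (h : (if (m.sum ≤ n ∧ ∀ a ∈ m, 2 ≤ a) ∧ Even (m.sum + Multiset.card m) then
        n ! / ((n - m.sum)! * (m.prod * (∏ k ∈ m.toFinset, (m.count k)!))) else 0) = c) :
    #{g : alternatingGroup (Fin n) | (g : Perm (Fin n)).cycleType = m} = c := by
  rw [AlternatingGroup.card_of_cycleType, Fintype.card_fin]
  exact h

theorem card_alt (n c : ℕ) (h0 : 2 ≤ n) (h : n ! = 2 * c) : Fintype.card (alternatingGroup (Fin n)) = c := by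
  have : Nontrivial (Fin n) := Fin.nontrivial_iff_two_le.2 h0
  have h1 := two_mul_card_alternatingGroup (α := Fin n)
  rw [Fintype.card_perm, Fintype.card_fin, h] at h1
  omega

/-- the sum over `A₆` -/
theorem sum_six {K : Type*} [Field K] (t1 t3 t22 t5 t42 t33 : K) (f : alternatingGroup (Fin 6) → K)
    (h1 : f 1 = t1)
    (h3 : ∀ g : alternatingGroup (Fin 6), (g : Perm (Fin 6)).cycleType = {3} → f g = t3)
    (h22 : ∀ g : alternatingGroup (Fin 6), (g : Perm (Fin 6)).cycleType = {2, 2} → f g = t22)
    (h5 : ∀ g : alternatingGroup (Fin 6), (g : Perm (Fin 6)).cycleType = {5} → f g = t5)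
    (h42 : ∀ g : alternatingGroup (Fin 6), (g : Perm (Fin 6)).cycleType = {4, 2} → f g = t42)
    (h33 : ∀ g : alternatingGroup (Fin 6), (g : Perm (Fin 6)).cycleType = {3, 3} → f g = t33) :
    ∑ g, f g = t1 + 40 * t3 + 45 * t22 + 144 * t5 + 90 * t42 + 40 * t33 := by
  classical
  have c0 := card_type (n := 6) 0 1 (by decide +kernel)
  have c3 := card_type (n := 6) {3} 40 (by decide +kernel)
  have c22 := card_type (n := 6) {2, 2} 45 (by decide +kernel)
  have c5 := card_type (n := 6) {5} 144 (by decide +kernel)
  have c42 := card_type (n := 6) {4, 2} 90 (by decide +kernel)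
  have c33 := card_type (n := 6) {3, 3} 40 (by decide +kernel)
  let t : Multiset ℕ → K := fun m => if m = 0 then t1 else if m = {3} then t3 else if m = {2, 2} then t22 else
    if m = {5} then t5 else if m = {4, 2} then t42 else t33
  have n1 : ({3} : Multiset ℕ) ≠ 0 := by decide
  have n2 : ({2, 2} : Multiset ℕ) ≠ 0 := by decide
  have n3 : ({5} : Multiset ℕ) ≠ 0 := by decide
  have n4 : ({4, 2} : Multiset ℕ) ≠ 0 := by decide
  have n5 : ({3, 3} : Multiset ℕ) ≠ 0 := by decide
  have n6 : ({2, 2} : Multiset ℕ) ≠ {3} := by decide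
  have n7 : ({5} : Multiset ℕ) ≠ {3} := by decide
  have n8 : ({4, 2} : Multiset ℕ) ≠ {3} := by decide
  have n9 : ({3, 3} : Multiset ℕ) ≠ {3} := by decide
  have n10 : ({5} : Multiset ℕ) ≠ {2, 2} := by decide
  have n11 : ({4, 2} : Multiset ℕ) ≠ {2, 2} := by decide
  have n12 : ({3, 3} : Multiset ℕ) ≠ {2, 2} := by decide
  have n13 : ({4, 2} : Multiset ℕ) ≠ {5} := by decide
  have n14 : ({3, 3} : Multiset ℕ) ≠ {5} := by decide
  have n15 : ({3, 3} : Multiset ℕ) ≠ {4, 2} := by decide
  have key := sum_types (K := K) (n := 6) ({0, {3}, {2, 2}, {5}, {4, 2}, {3, 3}} : Finset (Multiset ℕ)) t f ?_ ?_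
  · rw [key, Finset.sum_insert, Finset.sum_insert, Finset.sum_insert, Finset.sum_insert, Finset.sum_insert,
      Finset.sum_singleton, c0, c3, c22, c5, c42, c33]
    · simp only [t, if_true, if_neg n1, if_neg n2, if_neg n3, if_neg n4, if_neg n5, if_neg n6, if_neg n7, if_neg n8,
        if_neg n9, if_neg n10, if_neg n11, if_neg n12, if_neg n13, if_neg n14, if_neg n15]
      push_cast
      ring
    all_goals decide
  · intro g hg
    simp only [Finset.mem_insert, Finset.mem_singleton] at hg
    rcases hg with h | h | h | h | h | h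
    · rw [h]
      rw [Perm.cycleType_eq_zero] at h
      have : g = 1 := Subtype.ext h
      rw [this, h1]
      simp only [t, if_true]
    · rw [h, h3 g h]; simp only [t, if_true, if_neg n1]
    · rw [h, h22 g h]; simp only [t, if_true, if_neg n2, if_neg n6]
    · rw [h, h5 g h]; simp only [t, if_true, if_neg n3, if_neg n7, if_neg n10]
    · rw [h, h42 g h]; simp only [t, if_true, if_neg n4, if_neg n8, if_neg n11, if_neg n13]
    · rw [h, h33 g h]; simp only [t, if_neg n5, if_neg n9, if_neg n12, if_neg n14, if_neg n15]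
  · rw [Finset.sum_insert, Finset.sum_insert, Finset.sum_insert, Finset.sum_insert, Finset.sum_insert,
      Finset.sum_singleton, c0, c3, c22, c5, c42, c33, card_alt 6 360 (by norm_num) (by decide +kernel)]
    all_goals decide

/-- the sum over `A₅` -/
theorem sum_five {K : Type*} [Field K] (t1 t3 t22 t5 : K) (f : alternatingGroup (Fin 5) → K)
    (h1 : f 1 = t1)
    (h3 : ∀ g : alternatingGroup (Fin 5), (g : Perm (Fin 5)).cycleType = {3} → f g = t3)
    (h22 : ∀ g : alternatingGroup (Fin 5), (g : Perm (Fin 5)).cycleType = {2, 2} → f g = t22)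
    (h5 : ∀ g : alternatingGroup (Fin 5), (g : Perm (Fin 5)).cycleType = {5} → f g = t5) :
    ∑ g, f g = t1 + 20 * t3 + 15 * t22 + 24 * t5 := by
  classical
  have c0 := card_type (n := 5) 0 1 (by decide +kernel)
  have c3 := card_type (n := 5) {3} 20 (by decide +kernel)
  have c22 := card_type (n := 5) {2, 2} 15 (by decide +kernel)
  have c5 := card_type (n := 5) {5} 24 (by decide +kernel)
  let t : Multiset ℕ → K := fun m => if m = 0 then t1 else if m = {3} then t3 else if m = {2, 2} then t22 else t5
  have n1 : ({3} : Multiset ℕ) ≠ 0 := by decide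
  have n2 : ({2, 2} : Multiset ℕ) ≠ 0 := by decide
  have n3 : ({5} : Multiset ℕ) ≠ 0 := by decide
  have n6 : ({2, 2} : Multiset ℕ) ≠ {3} := by decide
  have n7 : ({5} : Multiset ℕ) ≠ {3} := by decide
  have n10 : ({5} : Multiset ℕ) ≠ {2, 2} := by decide
  have key := sum_types (K := K) (n := 5) ({0, {3}, {2, 2}, {5}} : Finset (Multiset ℕ)) t f ?_ ?_
  · rw [key, Finset.sum_insert, Finset.sum_insert, Finset.sum_insert, Finset.sum_singleton, c0, c3, c22, c5]
    · simp only [t, if_true, if_neg n1, if_neg n2, if_neg n3, if_neg n6, if_neg n7, if_neg n10]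
      push_cast
      ring
    all_goals decide
  · intro g hg
    simp only [Finset.mem_insert, Finset.mem_singleton] at hg
    rcases hg with h | h | h | h
    · rw [h]
      rw [Perm.cycleType_eq_zero] at h
      have : g = 1 := Subtype.ext h
      rw [this, h1]
      simp only [t, if_true]
    · rw [h, h3 g h]; simp only [t, if_true, if_neg n1]
    · rw [h, h22 g h]; simp only [t, if_true, if_neg n2, if_neg n6]
    · rw [h, h5 g h]; simp only [t, if_neg n3, if_neg n7, if_neg n10]
  · rw [Finset.sum_insert, Finset.sum_insert, Finset.sum_insert, Finset.sum_singleton, c0, c3, c22, c5,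
      card_alt 5 60 (by norm_num) (by decide +kernel)]
    all_goals decide

end Cfsg.Agent.H251.E6
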