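import Cfsg.Agent.H952.F4.Scott

/-!
# Scott's lemma for two operators (helper251, S5927)
-/

set_option autoImplicit false

namespace Cfsg.Agent.H251.E6

open Module Cfsg.Agent.H952.F4

variable {K V : Type*} [Field K] [AddCommGroup V] [Module K V] [FiniteDimensional K V]

theorem scott_units (X Y : (Module.End K V)ˣ) (B : V →ₗ[K] V →ₗ[K] K) (hB : ∀ v, (∀ w, B v w = 0) → v = 0)
    (hX : ∀ v w, B ((X : Module.End K V) v) ((X : Module.End K V) w) = B v w)
    (hY : ∀ v w, B ((Y : Module.End K V) v) ((Y : Module.End K V) w) = B v w) {W : Submodule K V}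
    (hW : ∀ v, (X : Module.End K V) v = v → (Y : Module.End K V) v = v → v ∈ W) :
    ev (X : Module.End K V) 1 + ev (Y : Module.End K V) 1 + ev ((X * Y : (Module.End K V)ˣ) : Module.End K V) 1 ≤
      finrank K V + 2 * finrank K W := by
  let G : Subgroup (Module.End K V)ˣ := Subgroup.closure {X, Y}
  let ρ : Representation K ↥G V := (Units.coeHom (Module.End K V)).comp G.subtype
  have hx : X ∈ G := Subgroup.subset_closure (by simp)
  have hy : Y ∈ G := Subgroup.subset_closure (by simp)
  have hgen : Subgroup.closure {(⟨X, hx⟩ : ↥G), ⟨Y, hy⟩} = ⊤ := by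
    have h1 : (Subgroup.closure {(⟨X, hx⟩ : ↥G), ⟨Y, hy⟩}).map G.subtype = G := by
      rw [MonoidHom.map_closure, Set.image_pair]
      rfl
    apply Subgroup.map_injective G.subtype_injective
    rw [h1, ← MonoidHom.range_eq_map, Subgroup.range_subtype]
  have hinv : ∀ g : ↥G, ∀ v w, B (ρ g v) (ρ g w) = B v w := by
    rintro ⟨g, hg⟩
    show ∀ v w, B ((g : Module.End K V) v) ((g : Module.End K V) w) = B v w
    induction hg using Subgroup.closure_induction with
    | mem x hx =>
      rcases hx with rfl | rfl
      · exact hX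
      · exact hY
    | one => intro v w; rfl
    | mul a b _ _ ha hb =>
      intro v w
      rw [Units.val_mul, Module.End.mul_apply, Module.End.mul_apply, ha, hb]
    | inv a _ ha =>
      intro v w
      rw [← ha, ← Module.End.mul_apply, ← Module.End.mul_apply, ← Units.val_mul, mul_inv_cancel, Units.val_one,
        Module.End.one_apply, Module.End.one_apply]
  have h := Scott.scott_form ρ hgen B hB hinv
  have hle : ρ.invariants ≤ W := by
    intro v hv
    rw [Representation.mem_invariants] at hv
    exact hW v (hv ⟨X, hx⟩) (hv ⟨Y, hy⟩)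
  have h2 := Submodule.finrank_mono hle
  have h3 : ev (ρ ⟨X, hx⟩) 1 = ev (X : Module.End K V) 1 := rfl
  have h4 : ev (ρ ⟨Y, hy⟩) 1 = ev (Y : Module.End K V) 1 := rfl
  have h5 : ev (ρ (⟨X, hx⟩ * ⟨Y, hy⟩)) 1 = ev ((X * Y : (Module.End K V)ˣ) : Module.End K V) 1 := rfl
  rw [h3, h4, h5] at h
  omega

/-- the eigenspaces of an involution -/
theorem ev_neg_add (h2 : (2 : K) ≠ 0) {X : Module.End K V} (hX : X * X = 1) : ev X 1 + ev X (-1) = finrank K V := by
  have hc : IsCompl (Module.End.eigenspace X 1) (Module.End.eigenspace X (-1)) := by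
    constructor
    · rw [Submodule.disjoint_def]
      intro v h3 h4
      rw [Module.End.mem_eigenspace_iff] at h3 h4
      rw [one_smul] at h3
      rw [h3, neg_smul, one_smul] at h4
      have h5 : (2 : K) • v = 0 := by
        rw [two_smul]
        nth_rw 1 [h4]
        exact neg_add_cancel v
      exact (smul_eq_zero.1 h5).resolve_left h2
    · rw [codisjoint_iff, eq_top_iff]
      intro v _
      have hXX : X (X v) = v := by rw [← Module.End.mul_apply, hX, Module.End.one_apply]
      have e : v = (2 : K)⁻¹ • (v + X v) + (2 : K)⁻¹ • (v - X v) := by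
        rw [← smul_add, add_add_sub_cancel, ← two_smul K, smul_smul, inv_mul_cancel₀ h2, one_smul]
      rw [e]
      refine Submodule.add_mem_sup (Submodule.smul_mem _ _ ?_) (Submodule.smul_mem _ _ ?_)
      · rw [Module.End.mem_eigenspace_iff, map_add, hXX, one_smul, add_comm]
      · rw [Module.End.mem_eigenspace_iff, map_sub, hXX, neg_smul, one_smul, neg_sub]
  exact Submodule.finrank_add_eq_of_isCompl hc

theorem ev_neg (X : Module.End K V) (μ : K) : ev (-X) μ = ev X (-μ) := by
  have h : Module.End.eigenspace (-X) μ = Module.End.eigenspace X (-μ) := by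
    ext v
    rw [Module.End.mem_eigenspace_iff, Module.End.mem_eigenspace_iff, LinearMap.neg_apply, neg_smul]
    constructor
    · intro h; rw [← h, neg_neg]
    · intro h; rw [h, neg_neg]
  unfold ev
  rw [h]

/-- **upper bound for the common fixed space of two involutions** -/
theorem dih_le (h2 : (2 : K) ≠ 0) (X Y : (Module.End K V)ˣ) (B : V →ₗ[K] V →ₗ[K] K) (hB : ∀ v, (∀ w, B v w = 0) → v = 0)
    (hX : ∀ v w, B ((X : Module.End K V) v) ((X : Module.End K V) w) = B v w)
    (hY : ∀ v w, B ((Y : Module.End K V) v) ((Y : Module.End K V) w) = B v w) {U : Submodule K V}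
    (hU : ∀ v ∈ U, (X : Module.End K V) v = v ∧ (Y : Module.End K V) v = v) :
    ev (X : Module.End K V) (-1) + ev (Y : Module.End K V) (-1) + 2 * finrank K U ≤
      finrank K V + ev ((X * Y : (Module.End K V)ˣ) : Module.End K V) 1 := by
  let W : Submodule K V := Module.End.eigenspace (X : Module.End K V) (-1) ⊓ Module.End.eigenspace (Y : Module.End K V) (-1)
  have h1 := scott_units (-X) (-Y) B hB (fun v w => by
    simp only [Units.val_neg, LinearMap.neg_apply, map_neg, neg_neg, hX])
    (fun v w => by
    simp only [Units.val_neg, LinearMap.neg_apply, map_neg, neg_neg, hY])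
    (W := W) (fun v h3 h4 => by
      rw [Units.val_neg, LinearMap.neg_apply] at h3 h4
      rw [Submodule.mem_inf, Module.End.mem_eigenspace_iff, Module.End.mem_eigenspace_iff]
      constructor
      · rw [neg_smul, one_smul]
        nth_rw 2 [← h3]
        rw [neg_neg]
      · rw [neg_smul, one_smul]
        nth_rw 2 [← h4]
        rw [neg_neg])
  rw [neg_mul_neg, Units.val_neg, Units.val_neg, ev_neg, ev_neg] at h1
  have h3 : finrank K W + finrank K U ≤ ev ((X * Y : (Module.End K V)ˣ) : Module.End K V) 1 := by
    have hd : Disjoint W U := by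
      rw [Submodule.disjoint_def]
      intro v h4 h5
      have h6 := Module.End.mem_eigenspace_iff.1 (Submodule.mem_inf.1 h4).1
      rw [(hU v h5).1, neg_smul, one_smul] at h6
      have h7 : (2 : K) • v = 0 := by
        rw [two_smul]
        nth_rw 1 [h6]
        exact neg_add_cancel v
      exact (smul_eq_zero.1 h7).resolve_left h2
    have h4 := Submodule.finrank_sup_add_finrank_inf_eq W U
    rw [hd.eq_bot, finrank_bot, add_zero] at h4
    rw [← h4]
    refine Submodule.finrank_mono (sup_le ?_ ?_)
    · intro v hv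
      have h6 := Module.End.mem_eigenspace_iff.1 (Submodule.mem_inf.1 hv).1
      have h7 := Module.End.mem_eigenspace_iff.1 (Submodule.mem_inf.1 hv).2
      rw [Module.End.mem_eigenspace_iff, Units.val_mul, Module.End.mul_apply, h7, map_smul, h6, smul_smul, neg_mul_neg,
        one_mul]
    · intro v hv
      rw [Module.End.mem_eigenspace_iff, Units.val_mul, Module.End.mul_apply, (hU v hv).2, (hU v hv).1, one_smul]
  omega

end Cfsg.Agent.H251.E6
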