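import Cfsg.Agent.H251.E6.TrForm
import Cfsg.Agent.H251.E6.ScottU
import Cfsg.Agent.H251.E6.Avg
import Cfsg.Agent.H251.E6.Up
import Cfsg.Agent.H251.E6.Gen7
import Cfsg.Agent.H944.E6Tab
import Cfsg.Agent.H16.E6.Cov
import Cfsg.Agent.H952.F4.KillBase
import Cfsg.Agent.H952.F4.CasesSixFive

/-!
# The trace form; lifts of elements (helper251, S5927)
-/

set_option autoImplicit false

namespace Cfsg.Agent.H251.E6

open Cfsg Cfsg.Lie Module Equiv
open Cfsg.Agent.ChevalleyStructure.E6Min.Tables Cfsg.Agent.ChevalleyStructure.E6Min.Basic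
  Cfsg.Agent.ChevalleyStructure.E6Min.Adjoint
open Cfsg.Agent.H952.F4 (ev sh cr tf GenT)
open Cfsg.Agent.H163.E6
open Cfsg.Agent.H163.E6.Der (D_act D_apply)
open Cfsg.Agent.H952.F4.Kill (zz cc g1 r3 y7 z7)
open scoped Matrix

universe u

/-! ### the form -/

section Form

variable {F : Type u} [Field F]

theorem finrank_L : finrank F (chevE6.Idx → F) = 78 := by
  rw [Module.finrank_fintype_fun_eq_card]
  rfl

theorem comb_add (c d : chevE6.Idx → F) : comb (c + d) = comb c + comb d := by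
  simp only [comb_def, Pi.add_apply, add_smul, Finset.sum_add_distrib]

theorem comb_smul (t : F) (c : chevE6.Idx → F) : comb (t • c) = t • comb c := by
  simp only [comb_def, Pi.smul_apply, smul_eq_mul, Finset.smul_sum, smul_smul]

/-- the trace form -/
noncomputable def Bf (F : Type u) [Field F] : (chevE6.Idx → F) →ₗ[F] (chevE6.Idx → F) →ₗ[F] F :=
  LinearMap.mk₂ F (fun c d => (comb c * comb d).trace)
    (fun c c' d => by rw [comb_add, add_mul, Matrix.trace_add])
    (fun t c d => by rw [comb_smul, Matrix.smul_mul, Matrix.trace_smul])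
    (fun c d d' => by rw [comb_add, mul_add, Matrix.trace_add])
    (fun t c d => by rw [comb_smul, Matrix.mul_smul, Matrix.trace_smul])

theorem Bf_apply (c d : chevE6.Idx → F) : Bf F c d = (comb c * comb d).trace := rfl

theorem Bf_nondeg (h2 : (2 : F) ≠ 0) (h3 : (3 : F) ≠ 0) (c : chevE6.Idx → F) (h : ∀ d, Bf F c d = 0) : c = 0 :=
  eq_zero_of_trace h2 h3 h

theorem Bf_L (g : ↥(Zgrp F)) (c d : chevE6.Idx → F) : Bf F (L F g c) (L F g d) = Bf F c d := by
  have h : ∀ c, ((g : GL I27 F) : Matrix I27 I27 F) * comb c = comb (L F g c) * ((g : GL I27 F) : Matrix I27 I27 F) :=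
    fun c => comb_mul_of (ad_P g) c
  have h1 : ((g : GL I27 F) : Matrix I27 I27 F) * (((g : GL I27 F)⁻¹ : GL I27 F) : Matrix I27 I27 F) = 1 := by
    rw [← Units.val_mul, mul_inv_cancel, Units.val_one]
  have h2 : ∀ c, comb (L F g c) = ((g : GL I27 F) : Matrix I27 I27 F) * comb c *
      (((g : GL I27 F)⁻¹ : GL I27 F) : Matrix I27 I27 F) := fun c => by
    rw [h, mul_assoc, h1, mul_one]
  have h3 : (((g : GL I27 F)⁻¹ : GL I27 F) : Matrix I27 I27 F) * ((g : GL I27 F) : Matrix I27 I27 F) = 1 := by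
    rw [← Units.val_mul, inv_mul_cancel, Units.val_one]
  rw [Bf_apply, Bf_apply, h2, h2]
  rw [show ((g : GL I27 F) : Matrix I27 I27 F) * comb c * (((g : GL I27 F)⁻¹ : GL I27 F) : Matrix I27 I27 F) *
    (((g : GL I27 F) : Matrix I27 I27 F) * comb d * (((g : GL I27 F)⁻¹ : GL I27 F) : Matrix I27 I27 F)) =
    ((g : GL I27 F) : Matrix I27 I27 F) * (comb c * ((((g : GL I27 F)⁻¹ : GL I27 F) : Matrix I27 I27 F) *
      ((g : GL I27 F) : Matrix I27 I27 F)) * comb d * (((g : GL I27 F)⁻¹ : GL I27 F) : Matrix I27 I27 F)) by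
      simp only [mul_assoc]]
  rw [Matrix.trace_mul_comm, h3, mul_one, mul_assoc, h3, mul_one]

theorem Bf_LK (g : ↥(chevE6.group F)) (c d : chevE6.Idx → F) : Bf F (LK F g c) (LK F g d) = Bf F c d := by
  obtain ⟨x, rfl⟩ := ad_surjective g
  exact Bf_L x c d

end Form

/-! ### lifts of elements -/

section Lift

variable {F : Type u} [Field F] [Finite F] {A : Type*} [Group A]

theorem lift_pow (φ : A →* ↥(chevE6.group F)) {a : A} {k m s : ℕ} (hk : a ^ k = 1) (hm : 3 * m = 1 + k * s) :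
    ∃ x : ↥(Zgrp F), ad F x = φ a ∧ x ^ k = 1 ∧
      ∀ (b : A) (j : ℕ), b * a * b⁻¹ = a ^ j → ∃ y, y * x * y⁻¹ = x ^ j := by
  obtain ⟨x0, h0⟩ := ad_surjective (φ a)
  have hx0 : (x0 ^ k) ^ 3 = 1 := Cov.ker_pow (by rw [map_pow, h0, ← map_pow, hk, map_one])
  have had : ad F (x0 ^ (3 * m)) = φ a := by
    rw [map_pow, h0, ← map_pow, hm, pow_add, pow_one, pow_mul, hk, one_pow, mul_one]
  have hxk : (x0 ^ (3 * m)) ^ k = 1 := by
    rw [← pow_mul, show 3 * m * k = k * 3 * m by ring, pow_mul, pow_mul, hx0, one_pow]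
  refine ⟨x0 ^ (3 * m), had, hxk, ?_⟩
  set x := x0 ^ (3 * m)
  intro b j hb
  obtain ⟨y, hy⟩ := ad_surjective (φ b)
  refine ⟨y, ?_⟩
  set w := (x ^ j)⁻¹ * (y * x * y⁻¹) with hw
  have hadw : ad F w = 1 := by
    rw [hw, map_mul, map_mul, map_mul, map_inv, map_inv, map_pow, had, hy, ← map_inv, ← map_mul, ← map_mul, hb,
      ← map_pow, ← map_inv, ← map_mul, inv_mul_cancel, map_one]
  have hw3 : w ^ 3 = 1 := Cov.ker_pow hadw
  have hcomm : Commute (x ^ j) w := Cov.ker_comm hadw _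
  have e1 : y * x * y⁻¹ = x ^ j * w := by rw [hw, mul_inv_cancel_left]
  have hwk : w ^ k = 1 := by
    have h1 : (y * x * y⁻¹) ^ k = 1 := by rw [conj_pow, hxk, mul_one, mul_inv_cancel]
    rw [e1, hcomm.mul_pow, ← pow_mul, mul_comm j, pow_mul, hxk, one_pow, one_mul] at h1
    exact h1
  have hw1 : w = 1 := by
    have h1 : w ^ (3 * m) = 1 := by rw [pow_mul, hw3, one_pow]
    rwa [hm, pow_add, pow_one, pow_mul, hwk, one_pow, mul_one] at h1
  rw [e1, hw1, mul_one]

end Lift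

end Cfsg.Agent.H251.E6
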