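import Cfsg.Agent.H251.E6.Form
import Cfsg.Agent.H882.E6Thirty

/-!
# Invariants of a cover of `A₇` on the adjoint module (helper251, S5927)
-/

set_option autoImplicit false

namespace Cfsg.Agent.H251.E6

open Cfsg Cfsg.Lie Module Equiv
open Cfsg.Agent.ChevalleyStructure.E6Min.Tables Cfsg.Agent.ChevalleyStructure.E6Min.Basic
  Cfsg.Agent.ChevalleyStructure.E6Min.Adjoint
open Cfsg.Agent.H952.F4 (ev sh cr tf GenT)
open Cfsg.Agent.H163.E6
open Cfsg.Agent.H952.F4.Kill (zz cc g1 r3 y7 z7)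
open scoped Matrix

universe u

/-! ### conjugation -/

section Conj

variable {K V G : Type*} [Field K] [AddCommGroup V] [Module K V] [Group G]

theorem ev_conj (ρ : Representation K G V) (k g : G) (μ : K) : ev (ρ (k * g * k⁻¹)) μ = ev (ρ g) μ := by
  have hi : ∀ v, ρ k⁻¹ (ρ k v) = v := fun v => by
    rw [← Module.End.mul_apply, ← map_mul, inv_mul_cancel, map_one, Module.End.one_apply]
  have hi' : ∀ v, ρ k (ρ k⁻¹ v) = v := fun v => by
    rw [← Module.End.mul_apply, ← map_mul, mul_inv_cancel, map_one, Module.End.one_apply]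
  let e : V ≃ₗ[K] V := LinearEquiv.ofLinearMap (ρ k) (ρ k⁻¹) (LinearMap.ext hi') (LinearMap.ext hi)
  have h : Module.End.eigenspace (ρ (k * g * k⁻¹)) μ = (Module.End.eigenspace (ρ g) μ).map (e : V →ₗ[K] V) := by
    ext v
    rw [Submodule.mem_map, Module.End.mem_eigenspace_iff]
    constructor
    · intro hv
      refine ⟨ρ k⁻¹ v, ?_, hi' v⟩
      rw [Module.End.mem_eigenspace_iff, ← map_smul, ← hv, map_mul, map_mul, Module.End.mul_apply, Module.End.mul_apply,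
        hi]
    · rintro ⟨w, hw, rfl⟩
      rw [Module.End.mem_eigenspace_iff] at hw
      show ρ (k * g * k⁻¹) (ρ k w) = μ • ρ k w
      rw [map_mul, map_mul, Module.End.mul_apply, Module.End.mul_apply, hi, hw, map_smul]
  unfold ev
  rw [h]
  exact (e.submoduleMap _).finrank_eq.symm

theorem tr_conj (ρ : Representation K G V) (k g : G) :
    LinearMap.trace K V (ρ (k * g * k⁻¹)) = LinearMap.trace K V (ρ g) := by
  rw [map_mul, LinearMap.trace_mul_comm, ← map_mul, ← mul_assoc, inv_mul_cancel, one_mul]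

end Conj

section Facts

variable {F : Type u} [Field F] [Finite F] {n : ℕ} {φ : ↥(alternatingGroup (Fin n)) →* ↥(chevE6.group F)}

/-- the adjoint module of the alternating group -/
noncomputable abbrev rho (φ : ↥(alternatingGroup (Fin n)) →* ↥(chevE6.group F)) :
    Representation F ↥(alternatingGroup (Fin n)) (chevE6.Idx → F) := MonoidHom.comp (LK F) φ

omit [Finite F] in
theorem rho_eq {x : ↥(Zgrp F)} {a : ↥(alternatingGroup (Fin n))} (hx : ad F x = φ a) : rho φ a = L F x := by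
  rw [L_eq, hx]
  rfl

theorem three_facts (p : ℕ) [Fact p.Prime] [CharP F p] (hp : 5 ≤ p) (hn : n = 6 ∨ n = 7) (hφ : Function.Injective φ)
    {ω : Fˣ} (hc : Cover φ ω) {a : ↥(alternatingGroup (Fin n))} (ha : orderOf a = 3) :
    ev (rho φ a) 1 = 30 ∧ LinearMap.trace F _ (rho φ a) = 6 := by
  obtain ⟨x, hx⟩ := ad_surjective (φ a)
  obtain ⟨h1, h2, h3⟩ := Cov.type_thirty hn hφ hc ha hx
  have hne : ad F x ≠ 1 := by
    rw [hx]
    intro h
    rw [hφ (h.trans (map_one φ).symm), orderOf_one] at ha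
    omega
  rw [rho_eq hx]
  refine ⟨h3, ?_⟩
  rcases (Tor.tab p).three (by omega) x hne h1 with h | h | h | h
  · omega
  · exact h.2.2.2
  · omega
  · omega

theorem two_facts (p : ℕ) [Fact p.Prime] [CharP F p] (hp : 5 ≤ p) (hφ : Function.Injective φ)
    {a : ↥(alternatingGroup (Fin n))} (ha : a * a = 1) (ha1 : a ≠ 1) :
    (ev (rho φ a) 1 = 38 ∧ LinearMap.trace F _ (rho φ a) = -2) ∨ ev (rho φ a) 1 = 46 := by
  obtain ⟨x, hx, h1, -⟩ := lift_pow φ (a := a) (k := 2) (m := 1) (s := 1) (by rw [pow_two, ha]) (by norm_num)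
  have hne : x ≠ 1 := by
    rintro rfl
    rw [map_one] at hx
    exact ha1 (hφ (hx.symm.trans (map_one φ).symm))
  rw [rho_eq hx]
  rw [pow_two] at h1
  rcases (Tor.tab p).two (by omega) x hne h1 with h | h
  · exact Or.inl ⟨h.2.1, h.2.2.2⟩
  · exact Or.inr h.2.1

theorem four_facts (p : ℕ) [Fact p.Prime] [CharP F p] (hp : 5 ≤ p) (hφ : Function.Injective φ)
    {a b : ↥(alternatingGroup (Fin n))} (ha : a ^ 4 = 1) (ha1 : a * a ≠ 1) (hb : b * a * b⁻¹ = a ^ 3) :
    (ev (rho φ (a * a)) 1 = 38 ∧ (ev (rho φ a) 1 = 36 ∨ (ev (rho φ a) 1 = 20 ∧ LinearMap.trace F _ (rho φ a) = 2))) ∨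
      (ev (rho φ (a * a)) 1 = 46 ∧ 22 ≤ ev (rho φ a) 1) := by
  obtain ⟨x, hx, h1, hr⟩ := lift_pow φ (a := a) (k := 4) (m := 3) (s := 2) ha (by norm_num)
  obtain ⟨y, hy⟩ := hr b 3 hb
  have hxx : ad F (x * x) = φ (a * a) := by rw [map_mul, map_mul, hx]
  have hne : x * x ≠ 1 := by
    intro h
    rw [h, map_one] at hxx
    exact ha1 (hφ (hxx.symm.trans (map_one φ).symm))
  have hy' : ∃ g, g * x * g⁻¹ = x⁻¹ := ⟨y, by
    rw [hy]
    exact eq_inv_of_mul_eq_one_left (by rw [← pow_succ, h1])⟩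
  rw [rho_eq hx, rho_eq hxx]
  have h2 := (Tor.tab p).two (by omega) (x * x) hne (by
    have e : x * x * (x * x) = x ^ 4 := by simp only [pow_succ, pow_zero, one_mul, mul_assoc]
    rw [e, h1])
  rcases (Tor.tab p).four_real (by omega) x hne h1 hy' with h | h | h | h | h
  · rcases h2 with h2 | h2
    · exact Or.inl ⟨h2.2.1, Or.inl h.2.2.1⟩
    · omega
  · rcases h2 with h2 | h2
    · omega
    · exact Or.inr ⟨h2.2.1, by omega⟩
  · rcases h2 with h2 | h2
    · exact Or.inl ⟨h2.2.1, Or.inr ⟨h.2.2.1, h.2.2.2.2⟩⟩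
    · omega
  · rcases h2 with h2 | h2
    · exact Or.inl ⟨h2.2.1, Or.inr ⟨h.2.2.1, h.2.2.2.2⟩⟩
    · omega
  · rcases h2 with h2 | h2
    · omega
    · exact Or.inr ⟨h2.2.1, by omega⟩

theorem five_facts (p : ℕ) [Fact p.Prime] [CharP F p] (hp : p ≠ 5) (hφ : Function.Injective φ)
    {a b : ↥(alternatingGroup (Fin n))} (ha : a ^ 5 = 1) (ha1 : a ≠ 1) (hb : b * a * b⁻¹ = a ^ 2) :
    ev (rho φ a) 1 = 18 ∧ LinearMap.trace F _ (rho φ a) = 3 := by
  obtain ⟨x, hx, h1, hr⟩ := lift_pow φ (a := a) (k := 5) (m := 2) (s := 1) ha (by norm_num)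
  obtain ⟨y, hy⟩ := hr b 2 hb
  have hne : x ≠ 1 := by
    rintro rfl
    rw [map_one] at hx
    exact ha1 (hφ (hx.symm.trans (map_one φ).symm))
  rw [rho_eq hx]
  have h := (Tor.tab p).five_rat hp x hne h1 ⟨y, hy⟩
  exact ⟨h.2.1, h.2.2.2⟩

theorem seven_facts (p : ℕ) [Fact p.Prime] [CharP F p] (hφ : Function.Injective φ)
    {a b : ↥(alternatingGroup (Fin n))} (ha : a ^ 7 = 1) (ha1 : a ≠ 1) (hb : b * a * b⁻¹ = a ^ 2) :
    12 ≤ ev (rho φ a) 1 := by
  by_cases hp : p = 7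
  · subst hp
    have h1 : (rho φ a) ^ 7 = 1 := by rw [← map_pow, ha, map_one]
    have h2 := H952.F4.Eig.le_mul_ev 7 h1
    rw [finrank_L] at h2
    omega
  obtain ⟨x, hx, h1, hr⟩ := lift_pow φ (a := a) (k := 7) (m := 5) (s := 2) ha (by norm_num)
  obtain ⟨y, hy⟩ := hr b 2 hb
  have hne : x ≠ 1 := by
    rintro rfl
    rw [map_one] at hx
    exact ha1 (hφ (hx.symm.trans (map_one φ).symm))
  rw [rho_eq hx]
  rcases (Tor.tab p).seven_rat hp x hne h1 ⟨y, hy⟩ with h | h | h <;> omega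

/-- Scott's lemma on the adjoint module -/
theorem scott_L (h2 : (2 : F) ≠ 0) (h3 : (3 : F) ≠ 0) {x y : ↥(alternatingGroup (Fin n))}
    (hgen : Subgroup.closure {x, y} = ⊤) : ev (rho φ x) 1 + ev (rho φ y) 1 + ev (rho φ (x * y)) 1 ≤
      78 + 2 * finrank F (rho φ).invariants := by
  have h := H952.F4.Scott.scott_form (rho φ) hgen (Bf F) (Bf_nondeg h2 h3) (fun g v w => Bf_LK (φ g) v w)
  rwa [finrank_L] at h

end Facts

end Cfsg.Agent.H251.E6
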