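import Cfsg.Agent.H251.E6.LInv

/-!
# Invariants of a cover of `A₇` on the adjoint module, characteristic at least 7 (helper251, S5927)
-/

set_option autoImplicit false

namespace Cfsg.Agent.H251.E6

open Cfsg Cfsg.Lie Module Equiv
open Cfsg.Agent.ChevalleyStructure.E6Min.Tables Cfsg.Agent.ChevalleyStructure.E6Min.Basic
  Cfsg.Agent.ChevalleyStructure.E6Min.Adjoint
open Cfsg.Agent.H952.F4 (ev sh cr tf GenT)
open Cfsg.Agent.H163.E6
open Cfsg.Agent.H952.F4.Kill (zz cc g1 r3 y7 z7)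
open scoped Matrix

universe u

/-! ### elements of `A₇` -/

abbrev A7 : Type := ↥(alternatingGroup (Fin 7))

/-- an element inverting `cc` -/
def kc : A7 :=
  ⟨⟨![0, 1, 3, 2, 4, 6, 5], ![0, 1, 3, 2, 4, 6, 5], by decide, by decide⟩, by
    rw [Equiv.Perm.mem_alternatingGroup]; decide⟩

/-- an involution inverting `zz` -/
def s5 : A7 :=
  ⟨⟨![0, 4, 3, 2, 1, 5, 6], ![0, 4, 3, 2, 1, 5, 6], by decide, by decide⟩, by
    rw [Equiv.Perm.mem_alternatingGroup]; decide⟩

theorem kc_cc : kc * cc * kc⁻¹ = cc ^ 3 := by decide +kernel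
theorem cc_sq : ((cc * cc : A7) : Perm (Fin 7)).cycleType = {2, 2} := by decide +kernel
theorem cc_type : (cc : Perm (Fin 7)).cycleType = {4, 2} := by decide +kernel
theorem zz_type : (zz : Perm (Fin 7)).cycleType = {5} := by decide +kernel
theorem z7_type : (z7 : Perm (Fin 7)).cycleType = {7} := by decide +kernel
theorem y7_type : (y7 : Perm (Fin 7)).cycleType = {3, 3} := by decide +kernel
theorem r3_type : (r3 : Perm (Fin 7)).cycleType = {3} := by decide +kernel
theorem g1_type : (g1 : Perm (Fin 7)).cycleType = {2, 2} := by decide +kernel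
theorem g1_sq : g1 * g1 = 1 := by decide +kernel
theorem g1_ne : g1 ≠ 1 := by decide +kernel
theorem zz_ne : zz ≠ 1 := by decide +kernel
theorem z7_ne : z7 ≠ 1 := by decide +kernel
theorem cc_sq_ne : cc * cc ≠ 1 := by decide +kernel
theorem s5_sq : s5 * s5 = 1 := by decide +kernel
theorem s5_type : (s5 : Perm (Fin 7)).cycleType = {2, 2} := by decide +kernel
theorem s5z_type : ((s5 * zz : A7) : Perm (Fin 7)).cycleType = {2, 2} := by decide +kernel
theorem s5z_sq : (s5 * zz) * (s5 * zz) = 1 := by decide +kernel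

open Cfsg.Agent.H952.F4 in
theorem conj_g1 (g : A7) (h : (g : Perm (Fin 7)).cycleType = {2, 2}) : ∃ k, k * g1 * k⁻¹ = g :=
  H952.F4.SixFive.conj_of g1 g (swap 0 1) (by decide) (by decide +kernel) (by rw [h, g1_type])

theorem conj_cc (g : A7) (h : (g : Perm (Fin 7)).cycleType = {4, 2}) : ∃ k, k * cc * k⁻¹ = g :=
  H952.F4.SixFive.conj_of cc g (swap 5 6) (by decide) (by decide +kernel) (by rw [h, cc_type])

theorem conj_zz (g : A7) (h : (g : Perm (Fin 7)).cycleType = {5}) : ∃ k, k * zz * k⁻¹ = g :=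
  H952.F4.SixFive.conj_of zz g (swap 5 6) (by decide) (by decide +kernel) (by rw [h, zz_type])

theorem order_three {n : ℕ} {a : ↥(alternatingGroup (Fin n))} (h : (a : Perm (Fin n)).cycleType = {3} ∨
    (a : Perm (Fin n)).cycleType = {3, 3}) : orderOf a = 3 := by
  have h1 : orderOf (a : Perm (Fin n)) = 3 := by
    rw [← Perm.lcm_cycleType]
    rcases h with h | h <;> rw [h] <;> decide
  rwa [Subgroup.orderOf_coe] at h1

/-! ### the elements of order 7 -/

theorem seven_le {F : Type u} [Field F] [Finite F] {φ : A7 →* ↥(chevE6.group F)} (p : ℕ) [Fact p.Prime] [CharP F p]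
    (hφ : Function.Injective φ) {a : A7} (ha : (a : Perm (Fin 7)).cycleType = {7}) : 12 ≤ ev (rho φ a) 1 := by
  have h7 : (a : A7) ^ 7 = 1 := H952.F4.SixFive.pow_of_ct a ha
  have hne : a ≠ 1 := by
    rintro rfl
    rw [Subgroup.coe_one, Perm.cycleType_one] at ha
    exact absurd ha (by decide)
  -- `a` is conjugate in `S₇` to `z7`
  obtain ⟨τ, hτ⟩ := isConj_iff.1 (Perm.isConj_iff_cycleType_eq.2 (z7_type.trans ha.symm))
  have hb : τ * (y7 : Perm (Fin 7)) * τ⁻¹ ∈ alternatingGroup (Fin 7) := by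
    rw [Perm.mem_alternatingGroup, Perm.sign_mul, Perm.sign_mul, Perm.sign_inv]
    have h1 := Perm.mem_alternatingGroup.1 y7.2
    rw [h1, mul_one, Int.units_mul_self]
  refine seven_facts p hφ (b := ⟨τ * (y7 : Perm (Fin 7)) * τ⁻¹, hb⟩) h7 hne (Subtype.ext ?_)
  show τ * (y7 : Perm (Fin 7)) * τ⁻¹ * (a : Perm (Fin 7)) * (τ * (y7 : Perm (Fin 7)) * τ⁻¹)⁻¹ = (a : Perm (Fin 7)) ^ 2
  rw [← hτ, conj_pow]
  have h1 : (y7 : Perm (Fin 7)) * (z7 : Perm (Fin 7)) * (y7 : Perm (Fin 7))⁻¹ = (z7 : Perm (Fin 7)) ^ 2 :=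
    congrArg Subtype.val H952.F4.Kill.y7_z7
  rw [← h1]
  group

/-! ### Scott's lemma, first part -/

section Main

variable {F : Type u} [Field F] [Finite F] {φ : A7 →* ↥(chevE6.group F)}

/-- the classes in the remaining case -/
structure Cls (φ : A7 →* ↥(chevE6.group F)) : Prop where
  two : ∀ g : A7, (g : Perm (Fin 7)).cycleType = {2, 2} →
    ev (rho φ g) 1 = 38 ∧ LinearMap.trace F _ (rho φ g) = -2
  three : ∀ g : A7, (g : Perm (Fin 7)).cycleType = {3} ∨ (g : Perm (Fin 7)).cycleType = {3, 3} →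
    ev (rho φ g) 1 = 30 ∧ LinearMap.trace F _ (rho φ g) = 6
  four : ∀ g : A7, (g : Perm (Fin 7)).cycleType = {4, 2} →
    ev (rho φ g) 1 = 20 ∧ LinearMap.trace F _ (rho φ g) = 2

theorem cls_or (p : ℕ) [Fact p.Prime] [CharP F p] (hp : 5 ≤ p) (hφ : Function.Injective φ) {ω : Fˣ}
    (hc : Cover φ ω) : (rho φ).invariants ≠ ⊥ ∨ Cls φ := by
  have hpp : p.Prime := Fact.out
  have h2 : (2 : F) ≠ 0 := by
    intro h
    have := (CharP.cast_eq_zero_iff F p 2).1 (by exact_mod_cast h)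
    exact absurd (Nat.le_of_dvd (by norm_num) this) (by omega)
  have h3 : (3 : F) ≠ 0 := by
    intro h
    have := (CharP.cast_eq_zero_iff F p 3).1 (by exact_mod_cast h)
    exact absurd (Nat.le_of_dvd (by norm_num) this) (by omega)
  have hpos : 0 < finrank F (rho φ).invariants → (rho φ).invariants ≠ ⊥ := fun h h0 => by
    rw [h0, finrank_bot] at h
    exact lt_irrefl _ h
  have t3 : ∀ g : A7, (g : Perm (Fin 7)).cycleType = {3} ∨ (g : Perm (Fin 7)).cycleType = {3, 3} →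
      ev (rho φ g) 1 = 30 ∧ LinearMap.trace F _ (rho φ g) = 6 := fun g hg =>
    three_facts p hp (Or.inr rfl) hφ hc (order_three hg)
  have e2 : ∀ g : A7, (g : Perm (Fin 7)).cycleType = {2, 2} → ev (rho φ g) 1 = ev (rho φ g1) 1 := fun g hg => by
    obtain ⟨k, rfl⟩ := conj_g1 g hg
    exact ev_conj _ _ _ _
  have e4 : ∀ g : A7, (g : Perm (Fin 7)).cycleType = {4, 2} → ev (rho φ g) 1 = ev (rho φ cc) 1 := fun g hg => by
    obtain ⟨k, rfl⟩ := conj_cc g hg
    exact ev_conj _ _ _ _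
  have f4 := four_facts p hp hφ H952.F4.Kill.cc_pow cc_sq_ne kc_cc
  rw [e2 _ cc_sq] at f4
  rcases f4 with ⟨f2, f4⟩ | ⟨f2, f4⟩
  · rcases f4 with f4 | f4
    · left
      obtain ⟨x, y, hgen, hx, hy, hxy⟩ := gen434
      have h := scott_L (φ := φ) h2 h3 hgen
      rw [e4 x hx, e4 _ hxy, (t3 y (Or.inr hy)).1, f4] at h
      exact hpos (by omega)
    · right
      refine ⟨fun g hg => ?_, t3, fun g hg => ?_⟩
      · rcases two_facts p hp hφ g1_sq g1_ne with h | h
        · obtain ⟨k, rfl⟩ := conj_g1 g hg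
          rw [ev_conj, tr_conj]
          exact h
        · omega
      · obtain ⟨k, rfl⟩ := conj_cc g hg
        rw [ev_conj, tr_conj]
        exact f4
  · left
    obtain ⟨x, y, hgen, hx, hy, hxy⟩ := gen247
    have h := scott_L (φ := φ) h2 h3 hgen
    rw [e2 x hx, e4 y hy, f2] at h
    have h7 := seven_le p hφ hxy
    exact hpos (by omega)

end Main

end Cfsg.Agent.H251.E6
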