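import Cfsg.Agent.H251.E6.LInv2

/-!
# Invariants of a cover of `A₇` on the adjoint module, characteristic at least 7 (helper251, S5927)
-/

set_option autoImplicit false

namespace Cfsg.Agent.H251.E6

open Cfsg Cfsg.Lie Module Equiv
open Cfsg.Agent.ChevalleyStructure.E6Min.Tables Cfsg.Agent.ChevalleyStructure.E6Min.Basic
  Cfsg.Agent.ChevalleyStructure.E6Min.Adjoint
open Cfsg.Agent.H952.F4 (ev sh cr tf GenT)
open Cfsg.Agent.H163.E6
open Cfsg.Agent.H952.F4.Kill (zz cc g1 r3 y7 z7)
open scoped Matrix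

universe u

abbrev A6 : Type := ↥(alternatingGroup (Fin 6))
abbrev A5 : Type := ↥(alternatingGroup (Fin 5))

/-- the other embedding of `A₆` -/
def up' : A6 →* A7 where
  toFun g := ⟨swap 5 6 * (up g : Perm (Fin 7)) * (swap 5 6)⁻¹, by
    rw [Perm.mem_alternatingGroup, Perm.sign_mul, Perm.sign_mul, Perm.sign_inv,
      Perm.mem_alternatingGroup.1 (up g).2, mul_one, Int.units_mul_self]⟩
  map_one' := Subtype.ext (by rw [map_one]; simp)
  map_mul' g h := Subtype.ext (by
    show swap 5 6 * (up (g * h) : Perm (Fin 7)) * (swap 5 6)⁻¹ =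
      swap 5 6 * (up g : Perm (Fin 7)) * (swap 5 6)⁻¹ * (swap 5 6 * (up h : Perm (Fin 7)) * (swap 5 6)⁻¹)
    rw [map_mul, Subgroup.coe_mul]
    group)

theorem coe_up' (g : A6) : (up' g : Perm (Fin 7)) = swap 5 6 * (up g : Perm (Fin 7)) * (swap 5 6)⁻¹ := rfl

theorem type_up' (g : A6) : (up' g : Perm (Fin 7)).cycleType = (g : Perm (Fin 6)).cycleType := by
  rw [coe_up', Perm.cycleType_conj, type_up]

theorem up'_up (g : A5) : up' (up g) = up (up g) := by
  apply Subtype.ext
  rw [coe_up', mul_inv_eq_iff_eq_mul]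
  have h6 : (up (up g) : Perm (Fin 7)) 6 = 6 := up_last (up g)
  have h5 : (up (up g) : Perm (Fin 7)) 5 = 5 := by
    have h1 := upP_apply ((up g : A6) : Perm (Fin 6)) 5
    have h2 : (up g : Perm (Fin 6)) 5 = 5 := up_last g
    rw [h2] at h1
    exact h1
  rw [Equiv.mul_swap_eq_swap_mul, h5, h6]

/-! ### dimensions -/

section Main

variable {F : Type u} [Field F] [Finite F] {φ : A7 →* ↥(chevE6.group F)}

theorem cast_ne (p : ℕ) [Fact p.Prime] [CharP F p] (n : ℕ) (hn : 0 < n) (h : ∀ q, q.Prime → q ∣ n → q < p) :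
    ((n : ℕ) : F) ≠ 0 := by
  intro h0
  have h1 := (CharP.cast_eq_zero_iff F p n).1 h0
  exact absurd (h p Fact.out h1) (lt_irrefl _)

theorem five_all (p : ℕ) [Fact p.Prime] [CharP F p] (hp : 7 ≤ p) (hφ : Function.Injective φ) (g : A7)
    (hg : (g : Perm (Fin 7)).cycleType = {5}) :
    ev (rho φ g) 1 = 18 ∧ LinearMap.trace F _ (rho φ g) = 3 := by
  obtain ⟨k, rfl⟩ := conj_zz g hg
  rw [ev_conj, tr_conj]
  exact five_facts p (by omega) hφ H952.F4.Kill.zz_pow zz_ne H952.F4.Kill.cc_zz

theorem tr_one' : LinearMap.trace F (chevE6.Idx → F) 1 = 78 := by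
  rw [LinearMap.trace_one, finrank_L]
  norm_num

theorem six_dim (p : ℕ) [Fact p.Prime] [CharP F p] (hp : 7 ≤ p) (hφ : Function.Injective φ) (hC : Cls φ)
    (ι : A6 →* A7) (hι : ∀ g, (ι g : Perm (Fin 7)).cycleType = (g : Perm (Fin 6)).cycleType) :
    3 ≤ finrank F (rho (φ.comp ι)).invariants := by
  have hsmall : ∀ n : ℕ, (∀ q, q.Prime → q ∣ n → q ≤ 5) → 0 < n → ((n : ℕ) : F) ≠ 0 := fun n h hn =>
    cast_ne p n hn fun q hq hqn => lt_of_le_of_lt (h q hq hqn) (by omega)
  have h2 : (2 : F) ≠ 0 := by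
    have := hsmall 2 (fun q _ hq => (Nat.le_of_dvd (by norm_num) hq).trans (by norm_num)) (by norm_num)
    exact_mod_cast this
  have h3 : (3 : F) ≠ 0 := by
    have := hsmall 3 (fun q _ hq => (Nat.le_of_dvd (by norm_num) hq).trans (by norm_num)) (by norm_num)
    exact_mod_cast this
  have h5 : (5 : F) ≠ 0 := by
    have := hsmall 5 (fun q _ hq => (Nat.le_of_dvd (by norm_num) hq).trans (by norm_num)) (by norm_num)
    exact_mod_cast this
  have h360 : ((360 : ℕ) : F) ≠ 0 := by
    have : (2 : F) * 2 * 2 * 3 * 3 * 5 ≠ 0 := by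
      simp only [mul_ne_zero_iff]
      exact ⟨⟨⟨⟨⟨h2, h2⟩, h2⟩, h3⟩, h3⟩, h5⟩
    norm_num at this
    exact_mod_cast this
  have hr : ∀ g, rho (φ.comp ι) g = rho φ (ι g) := fun g => rfl
  obtain ⟨x, y, hgen, hx, hy, hxy⟩ := gen6c
  have hs := scott_L (φ := φ.comp ι) h2 h3 hgen
  rw [hr, hr, hr, (hC.three _ (Or.inl ((hι x).trans hx))).1, (hC.three _ (Or.inr ((hι y).trans hy))).1,
    (hC.four _ ((hι (x * y)).trans hxy)).1] at hs
  have hcard : Fintype.card A6 = 360 := card_alt 6 360 (by norm_num) (by decide +kernel)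
  have ha := avg (rho (φ.comp ι)) (by rw [hcard]; exact h360)
  rw [sum_six 78 6 (-2) 3 2 6 (fun g => LinearMap.trace F _ (rho (φ.comp ι) g))
    (by rw [map_one]; exact tr_one')
    (fun g hg => (hC.three _ (Or.inl ((hι g).trans hg))).2)
    (fun g hg => (hC.two _ ((hι g).trans hg)).2)
    (fun g hg => (five_all p hp hφ _ ((hι g).trans hg)).2)
    (fun g hg => (hC.four _ ((hι g).trans hg)).2)
    (fun g hg => (hC.three _ (Or.inr ((hι g).trans hg))).2), hcard] at ha
  have hd : ((finrank F (rho (φ.comp ι)).invariants : ℕ) : F) = ((3 : ℕ) : F) := by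
    apply mul_left_cancel₀ h360
    rw [← ha]
    push_cast
    norm_num
  rw [CharP.natCast_eq_natCast F p] at hd
  by_contra hlt
  push Not at hlt
  have h1 : finrank F (rho (φ.comp ι)).invariants = 3 := by
    rw [Nat.ModEq, Nat.mod_eq_of_lt (by omega), Nat.mod_eq_of_lt (by omega)] at hd
    exact hd
  omega

def s5a : A5 :=
  ⟨⟨![0, 4, 3, 2, 1], ![0, 4, 3, 2, 1], by decide, by decide⟩, by
    rw [Equiv.Perm.mem_alternatingGroup]; decide⟩

def z5a : A5 :=
  ⟨⟨![1, 2, 3, 4, 0], ![4, 0, 1, 2, 3], by decide, by decide⟩, by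
    rw [Equiv.Perm.mem_alternatingGroup]; decide⟩

theorem up_s5a : up (up s5a) = s5 := by decide +kernel
theorem up_z5a : up (up z5a) = zz := by decide +kernel

theorem five_dim (p : ℕ) [Fact p.Prime] [CharP F p] (hp : 7 ≤ p) (hφ : Function.Injective φ) (hC : Cls φ) :
    finrank F (rho (φ.comp (up.comp up))).invariants = 4 := by
  have hsmall : ∀ n : ℕ, (∀ q, q.Prime → q ∣ n → q ≤ 5) → 0 < n → ((n : ℕ) : F) ≠ 0 := fun n h hn =>
    cast_ne p n hn fun q hq hqn => lt_of_le_of_lt (h q hq hqn) (by omega)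
  have h2 : (2 : F) ≠ 0 := by
    have := hsmall 2 (fun q _ hq => (Nat.le_of_dvd (by norm_num) hq).trans (by norm_num)) (by norm_num)
    exact_mod_cast this
  have h3 : (3 : F) ≠ 0 := by
    have := hsmall 3 (fun q _ hq => (Nat.le_of_dvd (by norm_num) hq).trans (by norm_num)) (by norm_num)
    exact_mod_cast this
  have h5 : (5 : F) ≠ 0 := by
    have := hsmall 5 (fun q _ hq => (Nat.le_of_dvd (by norm_num) hq).trans (by norm_num)) (by norm_num)
    exact_mod_cast this
  have h60 : ((60 : ℕ) : F) ≠ 0 := by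
    have : (2 : F) * 2 * 3 * 5 ≠ 0 := by
      simp only [mul_ne_zero_iff]
      exact ⟨⟨⟨h2, h2⟩, h3⟩, h5⟩
    norm_num at this
    exact_mod_cast this
  set j : A5 →* A7 := up.comp up with hj
  have hι : ∀ g, (j g : Perm (Fin 7)).cycleType = (g : Perm (Fin 5)).cycleType := fun g => by
    rw [hj]
    show ((up (up g) : A7) : Perm (Fin 7)).cycleType = _
    rw [type_up, type_up]
  have hr : ∀ g, rho (φ.comp j) g = rho φ (j g) := fun g => rfl
  have hcard : Fintype.card A5 = 60 := card_alt 5 60 (by norm_num) (by decide +kernel)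
  have ha := avg (rho (φ.comp j)) (by rw [hcard]; exact h60)
  rw [sum_five 78 6 (-2) 3 (fun g => LinearMap.trace F _ (rho (φ.comp j) g))
    (by rw [map_one]; exact tr_one')
    (fun g hg => (hC.three _ (Or.inl ((hι g).trans hg))).2)
    (fun g hg => (hC.two _ ((hι g).trans hg)).2)
    (fun g hg => (five_all p hp hφ _ ((hι g).trans hg)).2), hcard] at ha
  have hd : ((finrank F (rho (φ.comp j)).invariants : ℕ) : F) = ((4 : ℕ) : F) := by
    apply mul_left_cancel₀ h60
    rw [← ha]
    push_cast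
    norm_num
  rw [CharP.natCast_eq_natCast F p] at hd
  -- the upper bound
  let u : A7 →* (Module.End F (chevE6.Idx → F))ˣ := (rho φ).toHomUnits
  have hu : ∀ g, ((u g : (Module.End F (chevE6.Idx → F))ˣ) : Module.End F (chevE6.Idx → F)) = rho φ g := fun g => rfl
  have hinv : ∀ g v w, Bf F (rho φ g v) (rho φ g w) = Bf F v w := fun g v w => Bf_LK (φ g) v w
  have hle := dih_le h2 (u s5) (u (s5 * zz)) (Bf F) (Bf_nondeg h2 h3) (fun v w => hinv s5 v w)
    (fun v w => hinv (s5 * zz) v w) (U := (rho (φ.comp j)).invariants) (fun v hv => by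
      rw [Representation.mem_invariants] at hv
      have e1 : rho φ s5 v = v := by
        have := hv s5a
        rw [hr, hj] at this
        rwa [← up_s5a]
      have e2 : rho φ zz v = v := by
        have := hv z5a
        rw [hr, hj] at this
        rwa [← up_z5a]
      refine ⟨e1, ?_⟩
      rw [hu, map_mul, Module.End.mul_apply, e2, e1])
  have hmul : u s5 * u (s5 * zz) = u zz := by
    rw [← map_mul, ← mul_assoc, s5_sq, one_mul]
  have hev : ∀ g : A7, g * g = 1 → (g : Perm (Fin 7)).cycleType = {2, 2} → ev (rho φ g) (-1) = 40 := by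
    intro g hg ht
    have h4 := ev_neg_add (X := rho φ g) h2 (by rw [← map_mul, hg, map_one])
    rw [finrank_L, (hC.two g ht).1] at h4
    omega
  rw [hmul, hu, hu, hu, hev s5 s5_sq s5_type, hev _ s5z_sq s5z_type, finrank_L,
    (five_all p hp hφ zz zz_type).1] at hle
  have hd8 : finrank F (rho (φ.comp j)).invariants ≤ 8 := by omega
  by_contra hne
  have hdvd := hd
  rw [Nat.ModEq] at hd
  by_cases hlt : finrank F (rho (φ.comp j)).invariants < p
  · rw [Nat.mod_eq_of_lt hlt, Nat.mod_eq_of_lt (by omega)] at hd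
    exact hne hd
  · push Not at hlt
    have h7 : (p ∣ finrank F (rho (φ.comp j)).invariants - 4) :=
      (Nat.modEq_iff_dvd' (by omega)).1 hdvd.symm
    have h8 := Nat.le_of_dvd (by omega) h7
    omega

/-- **invariants on the adjoint module** -/
theorem inv_ne_bot_big (p : ℕ) [Fact p.Prime] [CharP F p] (hp : 7 ≤ p) (hφ : Function.Injective φ) {ω : Fˣ}
    (hc : Cover φ ω) : (rho φ).invariants ≠ ⊥ := by
  rcases cls_or p (by omega) hφ hc with h | hC
  · exact h
  have d6 := six_dim p hp hφ hC up type_up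
  have d6' := six_dim p hp hφ hC up' type_up'
  have d5 := five_dim p hp hφ hC
  set U := (rho (φ.comp up)).invariants with hU
  set U' := (rho (φ.comp up')).invariants with hU'
  set W := (rho (φ.comp (up.comp up))).invariants with hW
  have hle : U ⊔ U' ≤ W := by
    refine sup_le (fun v hv => ?_) (fun v hv => ?_)
    · rw [hU, Representation.mem_invariants] at hv
      rw [hW, Representation.mem_invariants]
      intro g
      exact hv (up g)
    · rw [hU', Representation.mem_invariants] at hv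
      rw [hW, Representation.mem_invariants]
      intro g
      have := hv (up g)
      show rho φ (up (up g)) v = v
      rw [← up'_up]
      exact this
  have h1 := Submodule.finrank_mono hle
  have h2 := Submodule.finrank_sup_add_finrank_inf_eq U U'
  have h3 : U ⊓ U' ≠ ⊥ := by
    intro h0
    rw [h0, finrank_bot] at h2
    omega
  obtain ⟨v, hv, hv0⟩ := Submodule.exists_mem_ne_zero_of_ne_bot h3
  obtain ⟨hvU, hvU'⟩ := Submodule.mem_inf.1 hv
  rw [hU, Representation.mem_invariants] at hvU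
  rw [hU', Representation.mem_invariants] at hvU'
  refine (Submodule.ne_bot_iff _).2 ⟨v, ?_, hv0⟩
  rw [Representation.mem_invariants]
  let S : Subgroup A7 :=
    { carrier := {g | rho φ g v = v}
      one_mem' := by
        show rho φ 1 v = v
        rw [map_one, Module.End.one_apply]
      mul_mem' := by
        intro a b ha hb
        show rho φ (a * b) v = v
        rw [map_mul, Module.End.mul_apply, hb, ha]
      inv_mem' := by
        intro a ha
        show rho φ a⁻¹ v = v
        have ha' : rho φ a v = v := ha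
        conv_lhs => rw [← ha']
        rw [← Module.End.mul_apply, ← map_mul, inv_mul_cancel, map_one, Module.End.one_apply] }
  intro g
  have hstar : ∀ k : Fin 7, k ≠ 0 → swap 0 1 * swap 0 k ∈ S.map (alternatingGroup (Fin 7)).subtype := by
    have key : ∀ k : Fin 7, k ≠ 0 → (∃ a : A6, (up a : Perm (Fin 7)) = swap 0 1 * swap 0 k) ∨
        ∃ a : A6, (up' a : Perm (Fin 7)) = swap 0 1 * swap 0 k := by
      intro k hk
      fin_cases k
      · exact absurd rfl hk
      · exact Or.inl ⟨⟨swap 0 1 * swap 0 1, Perm.mem_alternatingGroup.2 (by decide +kernel)⟩, by decide +kernel⟩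
      · exact Or.inl ⟨⟨swap 0 1 * swap 0 2, Perm.mem_alternatingGroup.2 (by decide +kernel)⟩, by decide +kernel⟩
      · exact Or.inl ⟨⟨swap 0 1 * swap 0 3, Perm.mem_alternatingGroup.2 (by decide +kernel)⟩, by decide +kernel⟩
      · exact Or.inl ⟨⟨swap 0 1 * swap 0 4, Perm.mem_alternatingGroup.2 (by decide +kernel)⟩, by decide +kernel⟩
      · exact Or.inl ⟨⟨swap 0 1 * swap 0 5, Perm.mem_alternatingGroup.2 (by decide +kernel)⟩, by decide +kernel⟩
      · exact Or.inr ⟨⟨swap 0 1 * swap 0 5, Perm.mem_alternatingGroup.2 (by decide +kernel)⟩, by decide +kernel⟩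
    intro k hk
    rcases key k hk with ⟨a, ha⟩ | ⟨a, ha⟩
    · rw [← ha]
      exact ⟨up a, hvU a, rfl⟩
    · rw [← ha]
      exact ⟨up' a, hvU' a, rfl⟩
  obtain ⟨a, ha, ha'⟩ := H952.F4.Gen.mem_of_star (n := 5) (S.map (alternatingGroup (Fin 7)).subtype)
    (by
      rintro _ ⟨a, -, rfl⟩
      exact a.2) hstar g.2
  have : a = g := Subtype.ext ha'
  rw [← this]
  exact ha

end Main

end Cfsg.Agent.H251.E6
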